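import Cfsg.Agent.H0.BC.B
import Cfsg.Agent.H23.Sec13

/-! The Brauer character of the adjoint module of `E₈(3)`. -/

set_option autoImplicit false
set_option maxRecDepth 100000

open Cfsg MonoidAlgebra H5 H7 H8 H21 Finset Module
open H14 H14.PreSt H14.St H23.Sec Cfsg.Lie Matrix

namespace H0.BC

variable {p : ℕ} {M : Ideal AlgInt}

theorem ex_delta [Fact p.Prime] (hM : IsPModular p M) : Nonempty (Kb p →+* kk M) := by
  haveI := charP_kk hM
  let := ZMod.algebra (kk M) p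
  exact ⟨(IsAlgClosed.lift : Kb p →ₐ[ZMod p] kk M)⟩

theorem ex_z [Fact p.Prime] (hM : IsPModular p M) (δ : Kb p →+* kk M) {l : ℕ} (hl : ¬ p ∣ l)
    {ζ : ℂ} (hζ : IsPrimitiveRoot ζ l) : ∃ z : (Kb p)ˣ, orderOf z = l ∧ δ z = red M ζ := by
  have l0 : l ≠ 0 := fun h => hl (h ▸ dvd_zero p)
  haveI : NeZero (l : Kb p) := ⟨fun e => hl ((CharP.cast_eq_zero_iff _ p l).1 e)⟩
  haveI := NeZero.mk l0
  obtain ⟨y, hy⟩ := HasEnoughRootsOfUnity.exists_primitiveRoot (Kb p) l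
  have h1 := red_prim hM hl hζ
  obtain ⟨i, -, hi⟩ := (hy.map_of_injective δ.injective).eq_pow_of_pow_eq_one h1.pow_eq_one
  rw [← map_pow] at hi
  have h2 : IsPrimitiveRoot (y ^ i) l := IsPrimitiveRoot.of_map_of_injective (hi ▸ h1) δ.injective
  refine ⟨(h2.isUnit l0).unit, ?_, hi⟩
  rw [← orderOf_units, IsUnit.unit_spec, ← h2.eq_orderOf]

theorem map_tor {F F' : Type*} [Field F] [Field F'] (γ : F →+* F') (c : Fin chevE8.rank → Fˣ) :
    goodE8.mapG γ ((goodE8.SG_hmul F).tor c) =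
      (goodE8.SG_hmul F').tor fun i => Units.map γ.toMonoidHom (c i) :=
  ((goodE8.SG_hmul F).map ((goodE8.SG_hmul F').base γ) (goodE8.mapG_x γ) c).trans
    (HMul.base_tor _ c)

instance fact3 : Fact (Nat.Prime 3) := ⟨Nat.prime_three⟩

/-- the group `E₈(3)` -/
abbrev E83 := chevE8.group (ZMod 3)

/-- embedding into the algebraic group -/
noncomputable def up : E83 →* chevE8.group (Kb 3) := goodE8.mapG (algebraMap (ZMod 3) (Kb 3))

theorem up_inj : Function.Injective up := goodE8.mapG_inj _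

theorem frob_up (s : E83) : goodE8.mapG (frobenius (Kb 3) 3) (up s) = up s := by
  refine Subtype.ext (Units.ext (Matrix.ext fun i j => ?_))
  rw [Good.mapG_apply, up, Good.mapG_apply, frobenius_def, ← map_pow, ZMod.pow_card]

/-- the adjoint module over the residue field -/
noncomputable def ρ3 (δ : Kb 3 →+* kk M) : E83 →* End (kk M) (chevE8.Idx → kk M) :=
  (ρ8 _).comp ((goodE8.mapG δ).comp up)

/-- value of a root on a coweight -/
noncomputable abbrev rv (ν : Fin chevE8.rank → ℤ) (r : Fin chevE8.nroots) : ℤ :=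
  ν ⬝ᵥ goodE8.R.wt r

/-- `ν` is conjugate to `u ν` modulo `l` -/
def Cj (l u : ℕ) (ν : Fin chevE8.rank → ℤ) : Prop :=
  ∃ w ∈ goodE8.R.W, ∀ r, ((u * rv ν (w r) : ℤ) : ZMod l) = (rv ν r : ℤ)

theorem ex_basis {K : Type} [Field K] (g : chevE8.group K) (y : Kˣ) (ν : Fin chevE8.rank → ℤ) :
    ∃ b : Basis chevE8.Idx K (chevE8.Idx → K), ∀ i,
      ρ8 K (g * (goodE8.SG_hmul K).tor (fun i => y ^ ν i) * g⁻¹) (b i) =
        ((y : K) ^ (Sum.elim (fun _ => 0) (rv ν) i : ℤ)) • b i := by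
  classical
  let e : (chevE8.Idx → K) ≃ₗ[K] (chevE8.Idx → K) :=
    LinearEquiv.ofLinear (ρ8 K g) (ρ8 K g⁻¹)
      (by rw [← End.mul_eq_comp, ← map_mul, mul_inv_cancel, map_one]; rfl)
      (by rw [← End.mul_eq_comp, ← map_mul, inv_mul_cancel, map_one]; rfl)
  refine ⟨(Pi.basisFun K _).map e, fun i => ?_⟩
  have h1 : (Pi.basisFun K _).map e i = ρ8 K g (Pi.single i 1) := by simp [e]
  have h2 : Pi.single i (1 : K) ∈ (ρ8 K ((goodE8.SG_hmul K).tor fun i => y ^ ν i)).eigenspace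
      ((y ^ (Sum.elim (fun _ => 0) (rv ν) i : ℤ) : Kˣ) : K) := by
    rw [ρ8_eig, Pi.mem_spanSubset_iff]
    intro a ha
    refine Pi.single_eq_of_ne ?_ _
    rintro rfl
    apply ha
    rw [Set.mem_ofPred_eq, prod_zpow_dot]
    rcases a with a | a <;> simp [Chev.adRep, PreChev.adWt]
  rw [End.mem_eigenspace_iff, Units.val_zpow_eq_zpow_val] at h2
  rw [h1, ← End.mul_apply, ← map_mul, inv_mul_cancel_right, map_mul, End.mul_apply, h2, map_smul]

variable {δ : Kb 3 →+* kk M} {β : E83 → ℂ}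

theorem IsBC.tor8 (h : IsBC (ρ3 δ) β) (hM : IsPModular 3 M) {l : ℕ} (hl : ¬ 3 ∣ l) {ζ : ℂ}
    (hζ : IsPrimitiveRoot ζ l) {s : E83} (hs : s ^ l = 1) : ∃ ν : Fin chevE8.rank → ℤ,
      (∀ i, 0 ≤ rv ν (goodE8.R.simple i)) ∧ (∀ r, rv ν r ≤ l) ∧
      (∀ k : ℕ, β (s ^ k) = 8 + ∑ r, (ζ ^ rv ν r) ^ k) ∧
      (∀ k : ℕ, (∀ r, (l : ℤ) ∣ k * rv ν r) → s ^ k = 1) ∧ Cj l 3 ν ∧
      ∀ a u, a * s * a⁻¹ = s ^ u → Cj l u ν := by
  have l0 : l ≠ 0 := fun h => hl (h ▸ dvd_zero 3)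
  obtain ⟨z, hz, h0⟩ := ex_z hM δ hl hζ
  obtain ⟨a, ν, h6, h7, h8⟩ := (alg8 3).exists_alcove (goodE8.tor_inj kerE8) (z := z) (s := up s)
    (by omega) (by rw [hz, ← map_pow, hs, map_one])
  have h9 : up s = a * (goodE8.SG_hmul _).tor (fun i => z ^ ν i) * a⁻¹ := h8
  refine ⟨ν, h6, hz ▸ h7, fun k => ?_, fun k hk => ?_, ?_, fun g u hg => ?_⟩
  · obtain ⟨b, hb⟩ := ex_basis (goodE8.mapG δ a) (Units.map δ.toMonoidHom z) ν
    have hV : ζ ∈ V M := mem_V_of_pow l0 hζ.pow_eq_one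
    rw [h.cyc hM hl hs b (fun i => ζ ^ (Sum.elim (fun _ => 0) (rv ν) i : ℤ)) (fun i => by
      rw [← zpow_natCast, ← _root_.zpow_mul, mul_comm, _root_.zpow_mul, zpow_natCast,
        hζ.pow_eq_one, _root_.one_zpow]) (fun i => ?_) k]
    · change ∑ i : Fin chevE8.rank ⊕ Fin chevE8.nroots, _ = _
      rw [Fintype.sum_sum_type]
      simp only [Sum.elim_inl, Sum.elim_inr, zpow_zero, one_pow, sum_const, card_univ,
        Fintype.card_fin, nsmul_eq_mul, mul_one]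
      rfl
    · have e1 : ∀ n : ℤ, red M (ζ ^ n) = red M ζ ^ n := fun n => by
        have hv : val M ζ = 1 := red_ne_zero_iff.1 ((red_prim hM hl hζ).ne_zero l0)
        rcases n with n | n
        · simp [red_pow hV]
        · rw [zpow_negSucc, zpow_negSucc, red_inv (by rw [map_pow, hv, one_pow]), red_pow hV]
      rw [e1, ← h0, ρ3, MonoidHom.comp_apply, MonoidHom.comp_apply, h9, map_mul (goodE8.mapG δ),
        map_mul (goodE8.mapG δ), map_inv, map_tor]
      simp only [map_zpow]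
      exact hb i
  · apply up_inj
    have := tor_cen (goodE8.SG_sep _) (goodE8.SG_top _) (goodE8.SG_hmul (Kb 3)) hz
      (ν := (k : ℤ) • ν) fun j => by
        rw [smul_dotProduct, ZMod.intCast_zmod_eq_zero_iff_dvd]; exact hk _
    rw [goodE8.center_eq_bot, Subgroup.mem_bot] at this
    rw [map_pow, h9, conj_pow, ← map_pow, map_one, conj_eq_one_iff, ← this]
    congr 1
    funext i
    simp [mul_comm (k : ℤ), _root_.zpow_mul]
  · refine conj_pow_W (goodE8.SG_sep _) (goodE8.SG_top _) _ hz h9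
      (a := a * (goodE8.mapG (frobenius (Kb 3) 3) a)⁻¹) ?_
    have e := frob_up s
    rw [h9, map_mul, map_mul, map_inv, map_tor] at e
    have : (fun i => Units.map (frobenius (Kb 3) 3).toMonoidHom (z ^ ν i)) =
        (fun i => z ^ ν i) ^ 3 := by
      funext i
      refine Units.ext ?_
      rw [Units.coe_map, Pi.pow_apply, Units.val_pow_eq_pow_val]
      exact frobenius_def _ _
    rw [this, map_pow, ← h9] at e
    conv_lhs => rw [← e]
    rw [h9, conj_pow]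
    group
  · exact conj_pow_W (goodE8.SG_sep _) (goodE8.SG_top _) _ hz h9 (a := up g)
      (by rw [← map_inv, ← map_mul, ← map_mul, hg, map_pow])

theorem IsBC.one8 (h : IsBC (ρ3 δ) β) : β 1 = 248 := by
  rw [h.one, finrank_fintype_fun_eq_card]
  exact_mod_cast (by decide +kernel : Fintype.card chevE8.Idx = 248)

theorem rnk_le8 (a : End (kk M) (chevE8.Idx → kk M)) : rnk a ≤ 248 := by
  refine (rnk_le a).trans ?_
  rw [finrank_fintype_fun_eq_card]
  decide +kernel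

theorem ex_bc8 : ∃ (M : Ideal AlgInt) (δ : Kb 3 →+* kk M) (β : E83 → ℂ), IsPModular 3 M ∧
    IsBC (ρ3 δ) β ∧ ∀ g, 3 ∣ orderOf g → β g = 0 := by
  obtain ⟨M, hM⟩ := exists_isPModular Nat.prime_three
  obtain ⟨δ⟩ := ex_delta hM
  obtain ⟨β, h⟩ := exists_bc hM (ρ3 δ)
  exact ⟨M, δ, β, hM, h⟩

end H0.BC
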