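import Cfsg.Agent.H0.BC.C

/-! Eigenvalue multiplicities of semisimple elements of `E₈(3)` on the adjoint module. -/

set_option autoImplicit false
set_option maxRecDepth 100000

open Cfsg MonoidAlgebra H5 H7 H8 H21 Finset Module
open H14 H14.PreSt H14.St H23.Sec Cfsg.Lie Matrix

namespace H0.BC

/-- the positive roots -/
def PR : List (List ℕ) :=
  [[0,0,0,0,0,0,0,1], [0,0,0,0,0,0,1,0], [0,0,0,0,0,0,1,1], [0,0,0,0,0,1,0,0], [0,0,0,0,0,1,1,0],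
   [0,0,0,0,0,1,1,1], [0,0,0,0,1,0,0,0], [0,0,0,0,1,1,0,0], [0,0,0,0,1,1,1,0], [0,0,0,0,1,1,1,1],
   [0,0,0,1,0,0,0,0], [0,0,0,1,1,0,0,0], [0,0,0,1,1,1,0,0], [0,0,0,1,1,1,1,0], [0,0,0,1,1,1,1,1],
   [0,0,1,0,0,0,0,0], [0,0,1,1,0,0,0,0], [0,0,1,1,1,0,0,0], [0,0,1,1,1,1,0,0], [0,0,1,1,1,1,1,0],
   [0,0,1,1,1,1,1,1], [0,1,0,0,0,0,0,0], [0,1,0,1,0,0,0,0], [0,1,0,1,1,0,0,0], [0,1,0,1,1,1,0,0],
   [0,1,0,1,1,1,1,0], [0,1,0,1,1,1,1,1], [0,1,1,1,0,0,0,0], [0,1,1,1,1,0,0,0], [0,1,1,1,1,1,0,0],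
   [0,1,1,1,1,1,1,0], [0,1,1,1,1,1,1,1], [0,1,1,2,1,0,0,0], [0,1,1,2,1,1,0,0], [0,1,1,2,1,1,1,0],
   [0,1,1,2,1,1,1,1], [0,1,1,2,2,1,0,0], [0,1,1,2,2,1,1,0], [0,1,1,2,2,1,1,1], [0,1,1,2,2,2,1,0],
   [0,1,1,2,2,2,1,1], [0,1,1,2,2,2,2,1], [1,0,0,0,0,0,0,0], [1,0,1,0,0,0,0,0], [1,0,1,1,0,0,0,0],
   [1,0,1,1,1,0,0,0], [1,0,1,1,1,1,0,0], [1,0,1,1,1,1,1,0], [1,0,1,1,1,1,1,1], [1,1,1,1,0,0,0,0],
   [1,1,1,1,1,0,0,0], [1,1,1,1,1,1,0,0], [1,1,1,1,1,1,1,0], [1,1,1,1,1,1,1,1], [1,1,1,2,1,0,0,0],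
   [1,1,1,2,1,1,0,0], [1,1,1,2,1,1,1,0], [1,1,1,2,1,1,1,1], [1,1,1,2,2,1,0,0], [1,1,1,2,2,1,1,0],
   [1,1,1,2,2,1,1,1], [1,1,1,2,2,2,1,0], [1,1,1,2,2,2,1,1], [1,1,1,2,2,2,2,1], [1,1,2,2,1,0,0,0],
   [1,1,2,2,1,1,0,0], [1,1,2,2,1,1,1,0], [1,1,2,2,1,1,1,1], [1,1,2,2,2,1,0,0], [1,1,2,2,2,1,1,0],
   [1,1,2,2,2,1,1,1], [1,1,2,2,2,2,1,0], [1,1,2,2,2,2,1,1], [1,1,2,2,2,2,2,1], [1,1,2,3,2,1,0,0],
   [1,1,2,3,2,1,1,0], [1,1,2,3,2,1,1,1], [1,1,2,3,2,2,1,0], [1,1,2,3,2,2,1,1], [1,1,2,3,2,2,2,1],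
   [1,1,2,3,3,2,1,0], [1,1,2,3,3,2,1,1], [1,1,2,3,3,2,2,1], [1,1,2,3,3,3,2,1], [1,2,2,3,2,1,0,0],
   [1,2,2,3,2,1,1,0], [1,2,2,3,2,1,1,1], [1,2,2,3,2,2,1,0], [1,2,2,3,2,2,1,1], [1,2,2,3,2,2,2,1],
   [1,2,2,3,3,2,1,0], [1,2,2,3,3,2,1,1], [1,2,2,3,3,2,2,1], [1,2,2,3,3,3,2,1], [1,2,2,4,3,2,1,0],
   [1,2,2,4,3,2,1,1], [1,2,2,4,3,2,2,1], [1,2,2,4,3,3,2,1], [1,2,2,4,4,3,2,1], [1,2,3,4,3,2,1,0],
   [1,2,3,4,3,2,1,1], [1,2,3,4,3,2,2,1], [1,2,3,4,3,3,2,1], [1,2,3,4,4,3,2,1], [1,2,3,5,4,3,2,1],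
   [1,3,3,5,4,3,2,1], [2,2,3,4,3,2,1,0], [2,2,3,4,3,2,1,1], [2,2,3,4,3,2,2,1], [2,2,3,4,3,3,2,1],
   [2,2,3,4,4,3,2,1], [2,2,3,5,4,3,2,1], [2,2,4,5,4,3,2,1], [2,3,3,5,4,3,2,1], [2,3,4,5,4,3,2,1],
   [2,3,4,6,4,3,2,1], [2,3,4,6,5,3,2,1], [2,3,4,6,5,4,2,1], [2,3,4,6,5,4,3,1], [2,3,4,6,5,4,3,2]]

/-- dot product of lists -/
def dotL : List ℕ → List ℕ → ℕ
  | c :: cs, a :: as => c * a + dotL cs as
  | _, _ => 0

theorem dotL_ofFn : ∀ {n : ℕ} (c a : Fin n → ℕ), dotL (List.ofFn c) (List.ofFn a) = ∑ j, c j * a j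
  | 0, _, _ => by simp [dotL]
  | n + 1, c, a => by
    rw [List.ofFn_succ, List.ofFn_succ, dotL, dotL_ofFn, Fin.sum_univ_succ]

/-- coefficients of the roots -/
noncomputable def cf8 : Fin 240 → Fin 8 → ℤ := goodE8.R.cf

theorem rv_eq (ν : Fin chevE8.rank → ℤ) (r : Fin 240) :
    rv ν r = ∑ j : Fin 8, cf8 r j * rv ν (goodE8.R.simple j) := dot_wt ν r

theorem PR_eq : List.ofFn (fun r : Fin 120 => List.ofFn fun j : Fin 8 =>
    (cf8 (Fin.natAdd 120 r) j).toNat) = PR := by decide +kernel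

theorem cf_pos : ∀ r : Fin 120, ∀ j : Fin 8, 0 ≤ cf8 (Fin.natAdd 120 r) j ∧
    cf8 (Fin.castAdd 120 r.rev) j = -cf8 (Fin.natAdd 120 r) j := by decide +kernel

/-- alcove coordinates -/
noncomputable def crd (ν : Fin chevE8.rank → ℤ) : List ℕ :=
  List.ofFn fun j : Fin 8 => (rv ν (goodE8.R.simple j)).toNat

theorem sum_roots {α : Type*} [AddCommMonoid α] (F : ℤ → α) {ν : Fin chevE8.rank → ℤ}
    (h0 : ∀ i, 0 ≤ rv ν (goodE8.R.simple i)) : ∑ r, F (rv ν r) =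
      (PR.map fun c => F (dotL c (crd ν)) + F (-(dotL c (crd ν) : ℕ))).sum := by
  have e : ∀ r : Fin 120, rv ν (Fin.natAdd 120 r) = (dotL (List.ofFn fun j : Fin 8 =>
      (cf8 (Fin.natAdd 120 r) j).toNat) (crd ν) : ℕ) := fun r => by
    rw [crd, dotL_ofFn, rv_eq]
    push_cast
    exact sum_congr rfl fun j _ => by
      rw [Int.toNat_of_nonneg (cf_pos r j).1, Int.toNat_of_nonneg (h0 j)]
  have e' : ∀ r : Fin 120, rv ν (Fin.castAdd 120 r.rev) = -rv ν (Fin.natAdd 120 r) := fun r => by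
    rw [rv_eq, rv_eq, ← sum_neg_distrib]
    exact sum_congr rfl fun j _ => by rw [(cf_pos r j).2, neg_mul]
  rw [← PR_eq, List.map_ofFn, List.sum_ofFn]
  change ∑ r : Fin (120 + 120), _ = _
  rw [Fin.sum_univ_add, ← Equiv.sum_comp Fin.revPerm, add_comm, ← sum_add_distrib]
  refine sum_congr rfl fun r _ => ?_
  simp only [Fin.revPerm_apply, e', e, Function.comp]

theorem crd_alc {ν : Fin chevE8.rank → ℤ} (h0 : ∀ i, 0 ≤ rv ν (goodE8.R.simple i)) {l : ℕ}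
    (h1 : ∀ r, rv ν r ≤ l) {f : List ℕ → Bool} (h : alcB [2, 3, 4, 6, 5, 4, 3, 2] l f = true) :
    f (crd ν) = true := by
  refine alcB_spec (n := 8) ![2, 3, 4, 6, 5, 4, 3, 2] _ l f (by decide) h ?_
  have := h1 (239 : Fin 240)
  rw [rv_eq] at this
  have e : ∀ j : Fin 8, cf8 239 j = ((![2, 3, 4, 6, 5, 4, 3, 2] j : ℕ) : ℤ) := by decide +kernel
  zify
  refine le_of_eq_of_le (sum_congr rfl fun j _ => ?_) this
  rw [Int.toNat_of_nonneg (h0 j), e]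

/-- residues of the positive roots -/
def vs (l : ℕ) (L : List ℕ) : List ℕ := PR.map fun c => dotL c L % l

/-- number of roots with a given residue -/
def cn (l : ℕ) (V : List ℕ) (j : ℕ) : ℕ := V.count j + V.count ((l - j) % l)

theorem sum_list_cn {α : Type*} [AddCommMonoid α] {l : ℕ} [NeZero l] (F : ZMod l → α) :
    ∀ V : List ℕ, (∀ v ∈ V, v < l) →
      (V.map fun v : ℕ => F v + F (-(v : ZMod l))).sum = ∑ j ∈ range l, cn l V j • F j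
  | [], _ => by simp [cn]
  | v :: V, h => by
    have hv := h v (by simp)
    have l0 := NeZero.pos l
    rw [List.map_cons, List.sum_cons, sum_list_cn F V fun w hw => h w (by simp [hw])]
    have h1 : ∀ j ∈ range l, cn l (v :: V) j • F j = cn l V j • F j +
        ((if v = j then F j else 0) + (if (l - v) % l = j then F j else 0)) := fun j hj => by
      have hj' := mem_range.1 hj
      have : v = (l - j) % l ↔ (l - v) % l = j := by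
        rcases Nat.eq_zero_or_pos v with a | a <;> rcases Nat.eq_zero_or_pos j with b | b
        · simp [a, b]
        · rw [a, Nat.mod_eq_of_lt (by omega), Nat.sub_zero, Nat.mod_self]; omega
        · rw [b, Nat.sub_zero, Nat.mod_self, Nat.mod_eq_of_lt (by omega)]; omega
        · rw [Nat.mod_eq_of_lt (by omega), Nat.mod_eq_of_lt (by omega)]; omega
      simp only [cn, List.count_cons, beq_iff_eq, this, add_smul, ite_smul, one_smul, zero_smul]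
      abel
    rw [sum_congr rfl h1, sum_add_distrib, sum_add_distrib, sum_ite_eq, sum_ite_eq,
      if_pos (mem_range.2 hv), if_pos (mem_range.2 (Nat.mod_lt _ l0)), ZMod.natCast_mod,
      Nat.cast_sub hv.le, ZMod.natCast_self, zero_sub, add_comm]

theorem sum_cn {α : Type*} [AddCommMonoid α] {l : ℕ} [NeZero l] (F : ZMod l → α)
    {ν : Fin chevE8.rank → ℤ} (h0 : ∀ i, 0 ≤ rv ν (goodE8.R.simple i)) :
    ∑ r, F (rv ν r) = ∑ j ∈ range l, cn l (vs l (crd ν)) j • F j := by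
  rw [sum_roots (fun n => F n) h0, ← sum_list_cn F _ (by
    simp only [vs, List.mem_map]
    rintro _ ⟨c, -, rfl⟩
    exact Nat.mod_lt _ (NeZero.pos l)), vs, List.map_map]
  simp [Function.comp_def]

theorem Cj.cn_eq {l u : ℕ} [NeZero l] (hu : u.Coprime l) {ν : Fin chevE8.rank → ℤ}
    (h0 : ∀ i, 0 ≤ rv ν (goodE8.R.simple i)) (h : Cj l u ν) {j : ℕ} (hj : j < l) :
    cn l (vs l (crd ν)) (u * j % l) = cn l (vs l (crd ν)) j := by
  classical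
  obtain ⟨w, -, h⟩ := h
  have a1 := sum_cn (l := l) (fun x => if x = (u * j : ℕ) then 1 else 0) h0
  have a2 := sum_cn (l := l) (fun x => if x = j then 1 else 0) h0
  have key : ∀ m, m < l → ∀ c : ℕ → ℕ,
      ∑ i ∈ range l, c i • (if (i : ZMod l) = m then 1 else 0) = c m := fun m hm c => by
    rw [sum_eq_single_of_mem m (mem_range.2 hm)]
    · simp
    · intro i hi e
      rw [if_neg, smul_zero]
      rw [ZMod.natCast_eq_natCast_iff', Nat.mod_eq_of_lt hm, Nat.mod_eq_of_lt (mem_range.1 hi)]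
      exact e
  rw [← ZMod.natCast_mod, key _ (Nat.mod_lt _ (NeZero.pos l)), ZMod.natCast_mod] at a1
  rw [key _ hj] at a2
  rw [← a1, ← a2, ← Equiv.sum_comp w (fun r => if ((rv ν r : ℤ) : ZMod l) = j then 1 else 0)]
  refine sum_congr rfl fun r _ => ?_
  rw [← h r]
  push_cast
  simp only [(ZMod.unitOfCoprime u hu).isUnit.mul_right_inj.trans Iff.rfl,
    ((ZMod.isUnit_iff_coprime u l).2 hu).mul_right_inj]

variable {M : Ideal AlgInt} {δ : Kb 3 →+* kk M} {β : E83 → ℂ}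

theorem eq_one_of_sum {ι : Type*} [Fintype ι] {μ : ι → ℂ} (h : ∀ i, ‖μ i‖ = 1)
    (e : ∑ i, μ i = Fintype.card ι) (i : ι) : μ i = 1 := by
  have h1 : ∀ i, (μ i).re ≤ 1 := fun i => (Complex.re_le_norm _).trans (h i).le
  have h2 : ∑ i, (1 - (μ i).re) = 0 := by
    have := congrArg Complex.re e
    rw [Complex.re_sum] at this
    simp [this]
  have h3 := (sum_eq_zero_iff_of_nonneg fun i _ => sub_nonneg.2 (h1 i)).1 h2 i (mem_univ i)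
  have h4 := Complex.sq_norm (μ i)
  rw [h i, Complex.normSq_apply] at h4
  apply Complex.ext
  · simp; linarith
  · simp; nlinarith

theorem IsBC.eq_one8 (h : IsBC (ρ3 δ) β) (hM : IsPModular 3 M) {l : ℕ} (hl : ¬ 3 ∣ l) {s : E83}
    (hs : s ^ l = 1) (e : β s = 248) : s = 1 := by
  have l0 : l ≠ 0 := fun h => hl (h ▸ dvd_zero 3)
  have hζ := Complex.isPrimitiveRoot_exp l l0
  obtain ⟨ν, -, -, h1, h2, -⟩ := h.tor8 hM hl hζ hs
  have a := h1 1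
  simp only [pow_one, e] at a
  rw [← pow_one s]
  refine h2 1 fun r => ?_
  rw [Nat.cast_one, one_mul, ← hζ.zpow_eq_one_iff_dvd]
  refine eq_one_of_sum (μ := fun r => _ ^ rv ν r) (fun r => ?_) ?_ r
  · rw [norm_zpow, hζ.norm'_eq_one l0, _root_.one_zpow]
  · rw [Fintype.card_fin]
    change _ = ((240 : ℕ) : ℂ)
    push_cast
    linear_combination -a

/-- multiplicity form -/
theorem IsBC.mult8 (h : IsBC (ρ3 δ) β) (hM : IsPModular 3 M) {l : ℕ} (hl : ¬ 3 ∣ l) {ζ : ℂ}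
    (hζ : IsPrimitiveRoot ζ l) {s : E83} (hs : s ^ l = 1) : ∃ L : List ℕ,
      (∀ f, alcB [2, 3, 4, 6, 5, 4, 3, 2] l f = true → f L = true) ∧
      (∀ k : ℕ, β (s ^ k) = 8 + ∑ j ∈ range l, cn l (vs l L) j * ζ ^ (j * k)) ∧
      (∀ j < l, cn l (vs l L) (3 * j % l) = cn l (vs l L) j) ∧
      ∀ a u, a * s * a⁻¹ = s ^ u → u.Coprime l → ∀ j < l,
        cn l (vs l L) (u * j % l) = cn l (vs l L) j := by
  have l0 : l ≠ 0 := fun h => hl (h ▸ dvd_zero 3)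
  have := NeZero.mk l0
  obtain ⟨ν, h0, h1, h2, -, h3, h4⟩ := h.tor8 hM hl hζ hs
  refine ⟨crd ν, fun f => crd_alc h0 h1, fun k => ?_, fun j => h3.cn_eq
    ((Nat.Prime.coprime_iff_not_dvd Nat.prime_three).2 hl) h0,
    fun a u e hu j => (h4 a u e).cn_eq hu h0⟩
  have := sum_cn (l := l) (fun x => (ζ ^ x.val) ^ k) h0
  rw [h2]
  congr 1
  refine Eq.trans (sum_congr rfl fun r _ => ?_) (this.trans (sum_congr rfl fun j hj => ?_))
  · congr 1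
    rw [← zpow_natCast, ZMod.val_intCast]
    conv_lhs => rw [← Int.emod_add_mul_ediv (rv ν r) l, zpow_add₀ (hζ.ne_zero l0), _root_.zpow_mul,
      zpow_natCast, hζ.pow_eq_one, _root_.one_zpow, mul_one]
  · rw [ZMod.val_natCast, Nat.mod_eq_of_lt (mem_range.1 hj), ← pow_mul, nsmul_eq_mul]

end H0.BC
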