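import Cfsg.Agent.H0.BC.D

/-! Tables of traces of small semisimple elements of `E₈(3)`. -/

set_option autoImplicit false
set_option maxRecDepth 100000

open Cfsg MonoidAlgebra H5 H7 H8 H21 Finset Module
open H23.Sec

namespace H0.BC

/-- multiplicity vector -/
def cvec (l : ℕ) (L : List ℕ) : List ℕ := (List.range l).map (cn l (vs l L))

theorem cvec_getD {l : ℕ} (L : List ℕ) {j : ℕ} (hj : j < l) :
    (cvec l L).getD j 0 = cn l (vs l L) j := by
  simp [cvec, List.getD_eq_getElem?_getD, hj]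

/-- invariance of a multiplicity vector -/
def invB (l u : ℕ) (c : List ℕ) : Bool :=
  (List.range l).all fun j => c.getD (u * j % l) 0 == c.getD j 0

theorem invB_cvec {l u : ℕ} {L : List ℕ}
    (h : ∀ j < l, cn l (vs l L) (u * j % l) = cn l (vs l L) j) : invB l u (cvec l L) = true := by
  simp only [invB, List.all_eq_true, List.mem_range, beq_iff_eq]
  intro j hj
  rw [cvec_getD L hj, cvec_getD L (Nat.mod_lt _ (by omega)), h j hj]

/-- traces of `s, s², s⁴` for `s⁸ = 1` -/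
def T8 : List (ℤ × ℤ × ℤ) :=
  [(-8, 248, 248), (-6, 132, 24), (-4, 24, 248), (-4, 64, -8), (-2, 4, 24), (-2, 28, 24),
   (0, -8, 248), (0, 0, -8), (0, 8, -8), (2, -4, 24), (2, 4, 24), (4, 0, -8), (4, 24, 248),
   (6, 4, 24), (8, -8, 248), (12, 64, -8), (14, 28, 24), (16, 0, -8), (24, 248, 248),
   (26, 132, 24), (28, 24, 248), (34, -4, 24), (44, 64, -8), (64, -8, 248), (78, 28, 24),
   (132, 24, 248), (248, 248, 248)]

/-- the test for elements of order dividing 8 -/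
def P8 (c : List ℕ) : Bool := !invB 8 3 c ||
  decide (c.getD 3 0 = c.getD 1 0 ∧ c.getD 5 0 = c.getD 1 0 ∧ c.getD 7 0 = c.getD 1 0 ∧
    c.getD 6 0 = c.getD 2 0 ∧ ((8 + c.getD 0 0 - c.getD 4 0 : ℤ),
      (8 + c.getD 0 0 + c.getD 4 0 - 2 * c.getD 2 0 : ℤ),
      (8 + c.getD 0 0 + c.getD 4 0 + 2 * c.getD 2 0 - 4 * c.getD 1 0 : ℤ)) ∈ T8)

theorem chk8 : alcB [2, 3, 4, 6, 5, 4, 3, 2] 8 (fun L => P8 (cvec 8 L)) = true := by
  decide +kernel

theorem chk11 : alcB [2, 3, 4, 6, 5, 4, 3, 2] 11 (fun L => !invB 11 3 (cvec 11 L) ||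
    (cvec 11 L == [240, 0, 0, 0, 0, 0, 0, 0, 0, 0, 0] ||
      cvec 11 L == [20, 22, 22, 22, 22, 22, 22, 22, 22, 22, 22])) = true := by
  decide +kernel

variable {M : Ideal AlgInt} {δ : Kb 3 →+* kk M} {β : E83 → ℂ}

theorem IsBC.tab8 (h : IsBC (ρ3 δ) β) (hM : IsPModular 3 M) {s : E83} (hs : s ^ 8 = 1) :
    ∃ t ∈ T8, β s = t.1 ∧ β (s ^ 2) = t.2.1 ∧ β (s ^ 4) = t.2.2 := by
  have hζ := Complex.isPrimitiveRoot_exp 8 (by norm_num)
  obtain ⟨L, h1, h2, h3, -⟩ := h.mult8 hM (by norm_num) hζ hs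
  generalize Complex.exp _ = ζ at hζ h2
  have h4 : ζ ^ 4 = -1 := (hζ.pow (by norm_num) (by norm_num : 8 = 4 * 2)).eq_neg_one_of_two_right
  have := h1 _ chk8
  simp only [P8, invB_cvec h3, Bool.not_true, Bool.false_or, decide_eq_true_eq] at this
  simp only [cvec_getD, Nat.reduceLT] at this
  obtain ⟨e3, e5, e7, e6, ht⟩ := this
  refine ⟨_, ht, ?_, ?_, ?_⟩
  · rw [← pow_one s, h2]
    simp only [sum_range_succ, sum_range_zero, e3, e5, e7, e6]
    push_cast
    linear_combination (cn 8 (vs 8 L) 1 * (ζ + ζ ^ 3) + cn 8 (vs 8 L) 2 * ζ ^ 2 +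
      cn 8 (vs 8 L) 4) * h4
  · rw [h2]
    simp only [sum_range_succ, sum_range_zero, e3, e5, e7, e6]
    push_cast
    linear_combination (cn 8 (vs 8 L) 1 * (ζ ^ 2 + ζ ^ 10) +
      cn 8 (vs 8 L) 2 * (ζ ^ 8 - ζ ^ 4 + 2) + cn 8 (vs 8 L) 4 * (ζ ^ 4 - 1)) * h4
  · rw [h2]
    simp only [pow_mul', h4, sum_range_succ, sum_range_zero, e3, e5, e7, e6]
    push_cast
    ring

theorem IsBC.tab11 (h : IsBC (ρ3 δ) β) (hM : IsPModular 3 M) {s : E83} (hs : s ^ 11 = 1)
    (h0 : s ≠ 1) : β s = 6 := by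
  have hζ := Complex.isPrimitiveRoot_exp 11 (by norm_num)
  obtain ⟨L, h1, h2, h3, -⟩ := h.mult8 hM (by norm_num) hζ hs
  generalize Complex.exp _ = ζ at hζ h2
  have h4 := hζ.geom_sum_eq_zero (by norm_num)
  have := h1 _ chk11
  simp only [invB_cvec h3, Bool.not_true, Bool.false_or, Bool.or_eq_true, beq_iff_eq] at this
  have e := h2 1
  rw [pow_one, sum_congr rfl fun j hj => by rw [← cvec_getD L (mem_range.1 hj)]] at e
  rcases this with a | a <;> rw [a] at e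
  · refine absurd (h.eq_one8 hM (by norm_num) hs ?_) h0
    rw [e]
    simp [sum_range_succ]
    norm_num
  · simp only [sum_range_succ, sum_range_zero] at e h4
    rw [e]
    simp
    linear_combination 22 * h4

theorem IsBC.unif (h : IsBC (ρ3 δ) β) (hM : IsPModular 3 M) {l : ℕ} (hp : l.Prime) (h3 : ¬ 3 ∣ l)
    (hg : ∀ j < l, j ≠ 0 → ∃ e < l, 3 ^ e % l = j) {s : E83} (hs : s ^ l = 1) :
    ∃ c : ℕ, (l - 1) * c ≤ 240 ∧ ∀ k, ¬ l ∣ k → β (s ^ k) = 248 - l * c := by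
  have hζ := Complex.isPrimitiveRoot_exp l hp.ne_zero
  obtain ⟨L, -, h2, h3, -⟩ := h.mult8 hM h3 hζ hs
  generalize Complex.exp _ = ζ at hζ h2
  generalize cn l (vs l L) = c at h2 h3
  have l1 := hp.one_lt
  have h4 : ∀ e, c (3 ^ e % l) = c 1 := fun e => by
    induction e with
    | zero => rw [pow_zero, Nat.mod_eq_of_lt l1]
    | succ e ih => rw [← ih, ← h3 (3 ^ e % l) (Nat.mod_lt _ hp.pos), pow_succ', Nat.mul_mod_mod]
  have h5 : ∀ y : ℂ, ∑ j ∈ range l, c j * y ^ j = c 0 - c 1 + c 1 * ∑ j ∈ range l, y ^ j :=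
    fun y => by
      rw [mul_sum, ← sub_eq_iff_eq_add, ← sum_sub_distrib,
        sum_eq_single_of_mem 0 (mem_range.2 hp.pos)]
      · simp
      · intro j hj j0
        obtain ⟨e, -, rfl⟩ := hg j (mem_range.1 hj) j0
        rw [h4, sub_self]
  have h6 := h2 0
  simp only [pow_zero, h.one8, mul_zero] at h6
  have h7 := h5 1
  simp only [one_pow, sum_const, card_range, nsmul_eq_mul, mul_one] at h7
  simp only [mul_one, h7] at h6
  refine ⟨c 1, ?_, fun k hk => ?_⟩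
  · have : (c 0 + c 1 * l : ℂ) = 240 + c 1 := by linear_combination -h6
    norm_cast at this
    obtain ⟨m, rfl⟩ := Nat.exists_eq_add_of_lt l1
    simp only [Nat.add_sub_cancel] at this ⊢
    nlinarith
  · rw [h2]
    simp only [pow_mul']
    rw [h5, (hζ.pow_of_coprime k ((Nat.Prime.coprime_iff_not_dvd hp).2 hk).symm).geom_sum_eq_zero
      l1]
    linear_combination -h6

end H0.BC
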