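import Cfsg.Agent.H0.BC.B

/-! Signed lists of coded group elements as elements of the group algebra. -/

set_option autoImplicit false

open Cfsg MonoidAlgebra H5 H7 H8 H21 Finset Module

namespace H0.BC

/-- a computable model for some elements of `G` -/
structure Mdl (G : Type*) [Group G] (C : Type) where
  mul : C → C → C
  one : C
  ok : C → Prop
  φ : C → G
  φ_one : φ one = 1
  ok_one : ok one
  ok_mul : ∀ {a b}, ok a → ok b → ok (mul a b)
  φ_mul : ∀ {a b}, ok a → ok b → φ (mul a b) = φ a * φ b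

/-- product of signed lists -/
def lmul {C : Type} (mul : C → C → C) (L L' : List (C × ℤ)) : List (C × ℤ) :=
  L.flatMap fun a => L'.map fun b => (mul a.1 b.1, a.2 * b.2)

/-- the list of a polycyclic sequence with steps of index two -/
def bld {C : Type} (mul : C → C → C) (one : C) : List (C × ℤ) → List (C × ℤ)
  | [] => [(one, 1)]
  | g :: gs => bld mul one gs ++ lmul mul [g] (bld mul one gs)

/-- total sign of the entries with a given label -/
def coef {C : Type} (l : ℕ) : List (C × ℤ) → List ℕ → ℤ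
  | a :: L, k :: K => (if k = l then a.2 else 0) + coef l L K
  | _, _ => 0

namespace Mdl

variable {G : Type*} [Group G] {C : Type} (m : Mdl G C)

/-- one term -/
noncomputable def sg (a : C × ℤ) : ℂ[G] := single (m.φ a.1) (a.2 : ℂ)

/-- the element of the group algebra -/
noncomputable def sumL (L : List (C × ℤ)) : ℂ[G] := (L.map m.sg).sum

/-- all entries are valid -/
def Ok (L : List (C × ℤ)) : Prop := ∀ a ∈ L, m.ok a.1

variable {m}

@[simp] theorem sumL_nil : m.sumL [] = 0 := rfl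

@[simp] theorem sumL_cons (a : C × ℤ) (L : List (C × ℤ)) : m.sumL (a :: L) = m.sg a + m.sumL L := by
  simp [sumL]

theorem sumL_append (L L' : List (C × ℤ)) : m.sumL (L ++ L') = m.sumL L + m.sumL L' := by
  simp [sumL]

theorem sumL_perm {L L' : List (C × ℤ)} (h : L.Perm L') : m.sumL L = m.sumL L' :=
  (h.map _).sum_eq

theorem sg_one : m.sg (m.one, 1) = 1 := by simp [sg, m.φ_one, one_def]

theorem sg_mul {a b : C × ℤ} (ha : m.ok a.1) (hb : m.ok b.1) :
    m.sg (m.mul a.1 b.1, a.2 * b.2) = m.sg a * m.sg b := by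
  simp [sg, single_mul_single, m.φ_mul ha hb]

theorem mem_lmul {mul : C → C → C} {L L' : List (C × ℤ)} {P Q R : C × ℤ → Prop}
    (h : ∀ a b, P a → Q b → R (mul a.1 b.1, a.2 * b.2)) (h1 : ∀ a ∈ L, P a) (h2 : ∀ a ∈ L', Q a) :
    ∀ a ∈ lmul mul L L', R a := by
  simp only [lmul, List.mem_flatMap, List.mem_map]
  rintro _ ⟨a, ha, b, hb, rfl⟩
  exact h a b (h1 a ha) (h2 b hb)

theorem Ok.lmul {L L' : List (C × ℤ)} (h : m.Ok L) (h' : m.Ok L') : m.Ok (lmul m.mul L L') :=
  mem_lmul (P := fun a => m.ok a.1) (Q := fun a => m.ok a.1) (fun _ _ => m.ok_mul) h h'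

theorem Ok.append {L L' : List (C × ℤ)} (h : m.Ok L) (h' : m.Ok L') : m.Ok (L ++ L') :=
  fun a ha => (List.mem_append.1 ha).elim (h a) (h' a)

theorem sumL_lmul : ∀ {L L' : List (C × ℤ)}, m.Ok L → m.Ok L' →
    m.sumL (lmul m.mul L L') = m.sumL L * m.sumL L'
  | [], _, _, _ => by simp [lmul]
  | a :: L, L', h, h' => by
    have := sumL_lmul (L := L) (fun b hb => h b (by simp [hb])) h'
    rw [lmul, List.flatMap_cons, sumL_append, sumL_cons, add_mul, ← this, lmul]
    congr 1
    rw [sumL, sumL, List.map_map, ← List.sum_map_mul_left]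
    congr 1
    exact List.map_congr_left fun b hb => sg_mul (h a (by simp)) (h' b hb)

theorem mem_bld {mul : C → C → C} {one : C} {P : C × ℤ → Prop}
    (h : ∀ a b, P a → P b → P (mul a.1 b.1, a.2 * b.2)) (h0 : P (one, 1)) :
    ∀ {gs : List (C × ℤ)}, (∀ a ∈ gs, P a) → ∀ a ∈ bld mul one gs, P a
  | [], _ => by simpa [bld] using h0
  | g :: gs, h1 => fun a ha => by
    have ih := mem_bld h h0 (gs := gs) fun b hb => h1 b (by simp [hb])
    rcases List.mem_append.1 ha with ha | ha
    · exact ih a ha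
    · exact mem_lmul h (by simpa using h1 g (by simp)) ih a ha

theorem Ok.bld {gs : List (C × ℤ)} (h : m.Ok gs) : m.Ok (bld m.mul m.one gs) :=
  mem_bld (P := fun a => m.ok a.1) (fun _ _ => m.ok_mul) m.ok_one h

theorem sumL_mul_of {L : List (C × ℤ)} {e : ℂ[G]} (h : ∀ a ∈ L, m.sg a * e = e) :
    m.sumL L * e = (L.length : ℂ) • e := by
  induction L with
  | nil => simp
  | cons a L ih =>
    rw [sumL_cons, add_mul, h a (by simp), ih fun b hb => h b (by simp [hb]), List.length_cons]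
    push_cast
    rw [add_smul, one_smul, add_comm]

theorem sg_mul_sumL {g : C × ℤ} {L : List (C × ℤ)} (hg : m.ok g.1) (h : m.Ok L) :
    m.sg g * m.sumL L = m.sumL (lmul m.mul [g] L) := by
  rw [sumL_lmul (by simpa [Ok] using hg) h]; simp

theorem sumL_mul_sg {g : C × ℤ} {L : List (C × ℤ)} (hg : m.ok g.1) (h : m.Ok L) :
    m.sumL L * m.sg g = m.sumL (lmul m.mul L [g]) := by
  rw [sumL_lmul h (by simpa [Ok] using hg)]; simp

theorem bld_sq {gs L : List (C × ℤ)} (h : m.Ok gs) (hL : BC.bld m.mul m.one gs = L)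
    (hp : ∀ g ∈ gs, (lmul m.mul [g] L).Perm L) :
    m.sumL L * m.sumL L = (L.length : ℂ) • m.sumL L := by
  have h1 : m.Ok L := hL ▸ h.bld
  refine sumL_mul_of fun a ha => (mem_bld (P := fun a => m.ok a.1 ∧ m.sg a * m.sumL L = m.sumL L)
    (fun a b ha hb => ⟨m.ok_mul ha.1 hb.1, ?_⟩) ⟨m.ok_one, ?_⟩
    (fun g hg => ⟨h g hg, ?_⟩) a (hL ▸ ha)).2
  · rw [sg_mul ha.1 hb.1, mul_assoc, hb.2, ha.2]
  · rw [sg_one, one_mul]
  · rw [sg_mul_sumL (h g hg) h1, sumL_perm (hp g hg)]

theorem sumL_mem (M : Ideal AlgInt) (L : List (C × ℤ)) : m.sumL L ∈ VG M G := by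
  refine list_sum_mem ?_
  simp only [List.mem_map]
  rintro _ ⟨a, -, rfl⟩
  exact single_mem_VG _ (intCast_mem _ _)

theorem map_sumL {Y : Type*} [AddCommGroup Y] [Module ℂ Y] (Λ : ℂ[G] →ₗ[ℂ] Y) (v : ℕ → Y) (n : ℕ) :
    ∀ (L : List (C × ℤ)) (K : List ℕ),
      List.Forall₂ (fun a k => k < n ∧ Λ (single (m.φ a.1) 1) = v k) L K →
      Λ (m.sumL L) = ∑ l ∈ range n, (coef l L K : ℂ) • v l
  | _, _, .nil => by simp [coef]
  | a :: L, k :: K, .cons h1 h2 => by
    have : m.sg a = (a.2 : ℂ) • single (m.φ a.1) 1 := by simp [sg]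
    rw [sumL_cons, map_add, map_sumL Λ v n L K h2, this, map_smul, h1.2]
    simp [coef, add_smul, sum_add_distrib, ite_smul, h1.1]

end Mdl

/-- check of a list against a list of certificates -/
def all2 {A B : Type} (f : A → B → Bool) : List A → List B → Bool
  | [], [] => true
  | a :: L, b :: K => f a b && all2 f L K
  | _, _ => false

theorem all2_spec {A B D : Type} {f : A → B → Bool} {P : A → Prop} {R : A → D → Prop} (g : B → D)
    (h : ∀ a b, P a → f a b = true → R a (g b)) : ∀ (L : List A) (K : List B), (∀ a ∈ L, P a) →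
      all2 f L K = true → List.Forall₂ R L (K.map g)
  | [], [], _, _ => .nil
  | a :: L, b :: K, h1, h2 => by
    rw [all2, Bool.and_eq_true] at h2
    exact .cons (h a b (h1 a (by simp)) h2.1) (all2_spec g h L K (fun c hc => h1 c (by simp [hc])) h2.2)
  | [], _ :: _, _, h2 => by simp [all2] at h2
  | _ :: _, [], _, h2 => by simp [all2] at h2

namespace Mdl

variable {G : Type*} [Group G] {C : Type} [DecidableEq C] {m : Mdl G C}

/-- evaluation of a class function by conjugating elements -/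
theorem ev_cert {β : G → ℂ} (hβ : IsClassFunction G β) {okB : C → Bool}
    (hok : ∀ c, okB c = true → m.ok c) {R : List C} (hR : ∀ c ∈ R, m.ok c) {L : List (C × ℤ)}
    (hL : m.Ok L) {K : List (ℕ × C)}
    (h : all2 (fun a k => decide (k.1 < R.length) && (okB k.2 &&
      decide (m.mul k.2 a.1 = m.mul (R.getD k.1 m.one) k.2))) L K = true) :
    H7.ev β (m.sumL L) = ∑ l ∈ range R.length,
      (coef l L (K.map Prod.fst) : ℂ) * β (m.φ (R.getD l m.one)) := by
  refine map_sumL (H7.ev β) (fun l => β (m.φ (R.getD l m.one))) _ L _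
    (all2_spec Prod.fst (fun a k ha e => ?_) L K hL h)
  simp only [Bool.and_eq_true, decide_eq_true_eq] at e
  have h1 := hok _ e.2.1
  have h2 := congrArg m.φ e.2.2
  rw [m.φ_mul h1 ha, m.φ_mul (hR _ (by rw [List.getD_eq_getElem _ _ e.1]; simp)) h1] at h2
  refine ⟨e.1, ?_⟩
  rw [ev_single, one_mul, ← hβ _ (m.φ k.2), h2, mul_inv_cancel_right]

end Mdl

/-! ### coded matrices over a ring of characteristic three -/

/-- digit -/
def dig (A t : ℕ) : ℕ := Nat.mod (Nat.shiftRight A (Nat.mul 2 t)) 4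

/-- encoding -/
noncomputable def enc (f : ℕ → ℕ) (N : ℕ) : ℕ :=
  Nat.rec 0 (fun t r => Nat.add r (Nat.shiftLeft (Nat.mod (f t) 3) (Nat.mul 2 t))) N

theorem enc_succ (f : ℕ → ℕ) (N : ℕ) : enc f (N + 1) = enc f N + f N % 3 * 4 ^ N := by
  change enc f N + (f N % 3) <<< (2 * N) = _
  rw [Nat.shiftLeft_eq, pow_mul]; rfl

theorem enc_lt (f : ℕ → ℕ) : ∀ N, enc f N < 4 ^ N
  | 0 => Nat.one_pos
  | N + 1 => by
    have := enc_lt f N
    have h2 : f N % 3 * 4 ^ N ≤ 2 * 4 ^ N := Nat.mul_le_mul_right _ (by omega)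
    rw [enc_succ, pow_succ]
    omega

theorem dig_eq (A t : ℕ) : dig A t = A / 4 ^ t % 4 := by
  change (A >>> (2 * t)) % 4 = _
  rw [Nat.shiftRight_eq_div_pow, pow_mul]; rfl

theorem dig_enc (f : ℕ → ℕ) {t : ℕ} : ∀ {N}, t < N → dig (enc f N) t = f t % 3
  | N + 1, h => by
    rw [enc_succ]
    rcases Nat.lt_succ_iff_lt_or_eq.1 h with h | rfl
    · obtain ⟨k, rfl⟩ := Nat.exists_eq_add_of_lt h
      rw [← dig_enc f h, dig_eq, dig_eq, show f (t + k + 1) % 3 * 4 ^ (t + k + 1) =
        4 ^ t * (4 * (f (t + k + 1) % 3 * 4 ^ k)) by ring, Nat.add_mul_div_left _ _ (by positivity),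
        Nat.add_mul_mod_self_left]
    · rw [dig_eq, Nat.add_mul_div_right _ _ (by positivity), Nat.div_eq_of_lt (enc_lt f t), zero_add,
        Nat.mod_eq_of_lt (by omega)]

/-- dot product of a row and a column -/
noncomputable def dotc (n A B i j : ℕ) : ℕ :=
  Nat.rec 0 (fun k r => Nat.add r (Nat.mul (dig A (Nat.add (Nat.mul n i) k))
    (dig B (Nat.add (Nat.mul n k) j)))) n

theorem dotc_eq (n A B i j : ℕ) :
    dotc n A B i j = ∑ k ∈ range n, dig A (n * i + k) * dig B (n * k + j) := by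
  suffices ∀ N, (Nat.rec 0 (fun k r => Nat.add r (Nat.mul (dig A (Nat.add (Nat.mul n i) k))
    (dig B (Nat.add (Nat.mul n k) j)))) N : ℕ) =
    ∑ k ∈ range N, dig A (n * i + k) * dig B (n * k + j) from this n
  intro N
  induction N with
  | zero => rfl
  | succ N ih => rw [sum_range_succ, ← ih]; rfl

/-- product -/
noncomputable def mulc (n A B : ℕ) : ℕ :=
  enc (fun t => dotc n A B (Nat.div t n) (Nat.mod t n)) (Nat.mul n n)

/-- linear combination -/
noncomputable def linc (n a A b B : ℕ) : ℕ :=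
  enc (fun t => Nat.add (Nat.mul a (dig A t)) (Nat.mul b (dig B t))) (Nat.mul n n)

/-- transpose -/
noncomputable def trc (n A : ℕ) : ℕ :=
  enc (fun t => dig A (Nat.add (Nat.mul n (Nat.mod t n)) (Nat.div t n))) (Nat.mul n n)

section

variable {ι : Type*} [Fintype ι] {n : ℕ} (e : ι ≃ Fin n) (R : Type*) [CommRing R]

/-- decoding -/
def mat (A : ℕ) : Matrix ι ι R := Matrix.of fun i j => (dig A (n * e i + e j) : R)

variable [CharP R 3]

omit [Fintype ι] in
theorem mat_enc (f : ℕ → ℕ) (i j : ι) :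
    mat e R (enc f (Nat.mul n n)) i j = f (n * e i + e j) := by
  have := (e i).2
  have := (e j).2
  rw [mat, Matrix.of_apply, dig_enc f (by change _ < n * n; nlinarith), CharP.cast_eq_mod R 3 (f _)]

omit [Fintype ι] in
theorem div_mod (i j : ι) : Nat.div (n * e i + e j) n = e i ∧ Nat.mod (n * e i + e j) n = e j := by
  have := (e j).2
  constructor
  · change (n * e i + e j) / n = _
    rw [Nat.mul_add_div (by omega), Nat.div_eq_of_lt this, add_zero]
  · change (n * e i + e j) % n = _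
    rw [Nat.mul_add_mod, Nat.mod_eq_of_lt this]

theorem mat_mulc (A B : ℕ) : mat e R (mulc n A B) = mat e R A * mat e R B := by
  ext i j
  rw [mulc, mat_enc, (div_mod e i j).1, (div_mod e i j).2, dotc_eq, Matrix.mul_apply, sum_range,
    ← e.sum_comp]
  simp [mat]

omit [Fintype ι] in
theorem mat_linc (a A b B : ℕ) :
    mat e R (linc n a A b B) = (a : R) • mat e R A + (b : R) • mat e R B := by
  ext i j
  rw [linc, mat_enc]
  simp [mat]

omit [Fintype ι] in
theorem mat_trc (A : ℕ) : mat e R (trc n A) = (mat e R A).transpose := by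
  ext i j
  rw [trc, mat_enc, (div_mod e i j).1, (div_mod e i j).2]
  rfl

end

end H0.BC
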