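import Cfsg.Agent.H0.BC.E
import Cfsg.Agent.H13.SL2Char

/-! `E₈(3)` has no subgroup `L₂(32)`. -/

set_option autoImplicit false
set_option maxRecDepth 100000

open Cfsg H5 H7 H8 H21 Finset Module H13 H13.GL2 H23.Sec
open scoped MatrixGroups ComplexConjugate

namespace H0.BC

variable {M : Ideal AlgInt} {δ : Kb 3 →+* kk M} {β : E83 → ℂ}

theorem IsBC.tab2 (h : IsBC (ρ3 δ) β) (hM : IsPModular 3 M) {s : E83} (hs : s ^ 2 = 1)
    (h1 : s ≠ 1) : β s = -8 ∨ β s = 24 := by
  obtain ⟨t, ht, a1, a2, -⟩ := h.tab8 hM (s := s) (by rw [show 8 = 2 * 4 from rfl, pow_mul, hs, one_pow])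
  rw [hs, h.one8] at a2
  have a3 : t.2.1 = 248 := by exact_mod_cast a2.symm
  have : ∀ t ∈ T8, t.2.1 = 248 → t.1 = -8 ∨ t.1 = 24 ∨ t.1 = 248 := by decide
  rcases this t ht a3 with e | e | e <;> rw [e] at a1
  · left; exact_mod_cast a1
  · right; exact_mod_cast a1
  · exact absurd (h.eq_one8 hM (by norm_num) hs (by exact_mod_cast a1)) h1

/-- the indices of the discrete series characters used -/
def S15 : Finset ℕ := {1, 2, 3, 4, 5, 6, 7, 8, 9, 10, 12, 13, 14, 15, 16}

theorem sum15 {u : ℂ} (hu : u ^ 33 = 1) :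
    ∃ a : ℂ, IsIntegral ℤ a ∧ ∑ k ∈ S15, (u ^ k + u ^ (32 * k)) = 3 * a := by
  have h1 : ∀ k ∈ S15, u ^ k + u ^ (32 * k) = u ^ k + u ^ (33 - k) := fun k hk => by
    have : 32 * k = 33 * (k - 1) + (33 - k) := by revert k; decide
    rw [this, pow_add, pow_mul, hu, one_pow, one_mul]
  have h2 : ∑ k ∈ S15, (u ^ k + u ^ (33 - k)) =
      (1 + u ^ 11 + u ^ 22) * ∑ i ∈ range 10, u ^ (i + 1) := by
    simp [S15, sum_range_succ]; ring
  have h3 : IsIntegral ℤ u := IsIntegral.of_pow (by norm_num : 0 < 33) (hu ▸ isIntegral_one)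
  rw [sum_congr rfl h1, h2]
  have : (u ^ 11 - 1) * (1 + u ^ 11 + u ^ 22) = 0 := by linear_combination hu
  rcases mul_eq_zero.1 this with e | e
  · refine ⟨_, IsIntegral.sum (s := range 10) (fun i => u ^ (i + 1)) fun i _ => h3.pow _, ?_⟩
    congr 1
    linear_combination (u ^ 11 + 2) * e
  · exact ⟨0, isIntegral_zero, by rw [e]; simp⟩

theorem no32' {F : Type*} [Field F] [Fintype F] [DecidableEq F] (hF : Fintype.card F = 32)
    (π : GL (Fin 2) F →* E83) (hπ : ∀ g, π g = 1 ↔ Sc g) : False := by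
  classical
  obtain ⟨M, δ, β, hM, h0, hs⟩ := ex_bc8
  have h := h0.comp π
  have c2 : (2 : F) = 0 := by
    have : ((32 : ℕ) : F) = 0 := hF ▸ FiniteField.cast_card_eq_zero F
    exact pow_eq_zero_iff (n := 5) (by norm_num) |>.1 (by push_cast at this; linear_combination this)
  have hsc : ∀ x, β (π (dg x x)) = 248 := fun x => by rw [(hπ _).2 (by simp), h0.one8]
  have hpar : ∀ x, β (π (par x)) = β (π (par 1)) := fun x => by
    have : GL2.up x x x.1 = dg x x * par 1 := by
      ext i j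
      fin_cases i <;> fin_cases j <;> simp [Matrix.mul_apply]
    rw [← h.cl.eq_of_isConj (isConj_up_par x x.ne_zero), this, map_mul, (hπ _).2 (by simp), one_mul]
  have ht : β (π (par 1)) = -8 ∨ β (π (par 1)) = 24 := h0.tab2 hM (by
    rw [← map_pow, hπ, sq]
    simp [Sc, Matrix.mul_apply, one_add_one_eq_two, c2]) (by rw [Ne, hπ]; simp)
  generalize β (π (par 1)) = t at hpar ht
  have cE : Fintype.card (EE F)ˣ = 1023 := by
    have := card_E (F := F)
    rw [hF] at this
    rw [Fintype.card_units, show Fintype.card (EE F) = 1024 by exact_mod_cast this]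
  have cF : Fintype.card Fˣ = 31 := by rw [Fintype.card_units, hF]
  have h33 : ∀ z : (EE F)ˣ, (z ^ 33).1.im = 0 := fun z => by
    have a1 := (Units.map (am (F := F)).toMonoidHom).range.card_mul_index
    rw [← Nat.card_congr (MonoidHom.ofInjective au_injective).toEquiv, Nat.card_eq_fintype_card,
      Nat.card_eq_fintype_card, cE, cF] at a1
    obtain ⟨x, hx⟩ := (Units.map (am (F := F)).toMonoidHom).range.pow_index_mem z
    rw [show (Units.map (am (F := F)).toMonoidHom).range.index = 33 by omega] at hx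
    rw [← hx]
    exact am_im _
  have hel : ∀ z : (EE F)ˣ, z.1.im ≠ 0 →
      β (π (el z)) = if (z ^ 11).1.im = 0 then 6 else 0 := fun z hz => by
    have e : ∀ n : ℕ, π (el z) ^ n = 1 ↔ (z ^ n).1.im = 0 := fun n => by
      rw [← map_pow, hπ, ← sc_el]
      exact iff_of_eq (congrArg Sc (map_pow elHom z n).symm)
    split_ifs with a
    · exact h0.tab11 hM ((e 11).2 a) (by rwa [Ne, hπ, sc_el])
    · refine hs _ ?_
      have a1 := orderOf_dvd_of_pow_eq_one ((e 33).2 (h33 z))
      rw [← e, ← orderOf_dvd_iff_pow_eq_one] at a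
      have : ∀ n ∈ Nat.divisors 33, ¬ n ∣ 11 → 3 ∣ n := by decide
      exact this _ (by simpa using a1) a
  obtain ⟨g, hg⟩ := IsCyclic.exists_generator (α := (EE F)ˣ)
  have hζ := Complex.isPrimitiveRoot_exp 33 (by norm_num)
  obtain ⟨θ, hθ⟩ : ∃ θ : MulChar (EE F) ℂ, θ g = Complex.exp (2 * Real.pi * Complex.I / (33 : ℕ)) :=
    ⟨_, MulChar.ofRootOfUnity_spec (ζ := (hζ.isUnit (by norm_num)).unit) (by
      rw [mem_rootsOfUnity', cE, IsUnit.unit_spec, show 1023 = 33 * 31 from rfl, pow_mul,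
        hζ.pow_eq_one, one_pow]) hg⟩
  rw [← hθ] at hζ
  have t33 : ∀ z : (EE F)ˣ, θ z ^ 33 = 1 := fun z => by
    obtain ⟨n, rfl⟩ := (mem_powers_iff_mem_zpowers.2 (hg z))
    rw [Units.val_pow_eq_pow_val, map_pow, ← pow_mul, mul_comm, pow_mul, hζ.pow_eq_one, one_pow]
  have tau : ∀ x : Fˣ, θ (am x.1) = 1 := fun x => by
    have a1 : θ (am x.1) ^ 31 = 1 := by
      rw [← map_pow, ← map_pow, ← Units.val_pow_eq_pow_val, ← cF, pow_card_eq_one, Units.val_one,
        map_one, map_one]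
    have a2 : θ (am x.1) ^ 33 = 1 := t33 (au x)
    simpa using pow_gcd_eq_one.2 ⟨a1, a2⟩
  have tst : ∀ z : (EE F)ˣ, θ (star z.1) = θ z ^ 32 := fun z => by
    have := tau (Units.mk0 _ (norm_ne z.ne_zero))
    rw [Units.val_mk0, am_norm, map_mul] at this
    linear_combination θ z ^ 32 * this - θ (star z.1) * t33 z
  have tk : ∀ (k : ℕ) (z : (EE F)ˣ), (θ ^ k) z = θ z ^ k ∧ (θ ^ k) (star z.1) = θ z ^ (32 * k) :=
    fun k z => ⟨MulChar.pow_apply_coe _ _ _,
      (MulChar.pow_apply_coe θ k (star z)).trans (by rw [pow_mul, ← tst]; rfl)⟩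
  have hne : ∀ k ∈ S15, ∀ l ∈ S15, θ ^ k ≠ bar (θ ^ l) ∧ (θ ^ k = θ ^ l → k = l) :=
    fun k hk l hl => by
      have a : ∀ k ∈ S15, ∀ l ∈ S15, ¬ k ≡ 32 * l [MOD 33] ∧ (k ≡ l [MOD 33] → k = l) := by decide
      have b : ∀ m, θ g ^ k = θ g ^ m → k ≡ m [MOD 33] := fun m e => by
        rw [hζ.eq_orderOf]
        exact ((isOfFinOrder_iff_pow_eq_one.2 ⟨33, by norm_num, t33 g⟩).pow_eq_pow_iff_modEq).1 e
      refine ⟨fun e => (a k hk l hl).1 (b _ ?_), fun e => (a k hk l hl).2 (b _ ?_)⟩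
      · rw [← (tk k g).1, e, bar_apply, (tk l g).2]
      · rw [← (tk k g).1, e, (tk l g).1]
  let χ : S15 → IrrCharacter (GL (Fin 2) F) := fun k => ⟨Cf (θ ^ k.1), irr_C (hne _ k.2 _ k.2).1⟩
  have hχ : Function.Injective χ := fun k l e => Subtype.ext
    ((hne _ k.2 _ l.2).2 ((C_eq_iff.1 (congrArg Subtype.val e)).resolve_right (hne _ k.2 _ l.2).1))
  have hidem : IsIdempotentElem (∑ k, fB {χ k}) := by
    rw [IsIdempotentElem, sum_mul]
    refine sum_congr rfl fun k _ => ?_
    rw [mul_sum, sum_eq_single k (fun l _ hl => fB_mul_fB_of_disjoint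
      (Set.disjoint_singleton.2 fun e => hl (hχ e).symm)) (by simp), fB_mul_self]
  have cG : (Nat.card (GL (Fin 2) F) : ℂ) = 3 * (338272 : ℕ) := by rw [card_GL, hF]; norm_num
  have hV : ∑ k, fB {χ k} ∈ VG M (GL (Fin 2) F) := by
    refine mem_VG.2 fun x => ?_
    obtain ⟨a, a1, a2⟩ : ∃ a : ℂ, IsIntegral ℤ a ∧ ∑ k ∈ S15, Cf (θ ^ k) x = 3 * a := by
      have tau' : ∀ (k : ℕ) (x : Fˣ), (θ ^ k) (am x.1) = 1 := fun k x =>
        (tk k (au x)).1.trans (by rw [au_val, tau, one_pow])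
      rcases trich x with ⟨y, rfl⟩ | ⟨y, e⟩ | ⟨y, y', e', e⟩ | e
      · refine ⟨(155 : ℕ), isIntegral_natCast _, ?_⟩
        simp only [C_sc, tau', hF]
        simp [S15]; norm_num
      · refine ⟨(-5 : ℤ), isIntegral_intCast _, ?_⟩
        simp only [(cf_C _).eq_of_isConj e, C_par, tau']
        simp [S15]; norm_num
      · exact ⟨0, isIntegral_zero, by simp only [(cf_C _).eq_of_isConj e, C_dg _ e']; simp⟩
      · obtain ⟨z, hz, e⟩ := e.exists_el
        obtain ⟨a, a1, a2⟩ := sum15 (t33 z)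
        refine ⟨-a, a1.neg, ?_⟩
        simp only [(cf_C _).eq_of_isConj e, C_el _ hz, tk, sum_neg_distrib, a2, mul_neg]
    have : (∑ k, fB {χ k}).coeff x = ((338272 : ℕ) : ℂ)⁻¹ * (31 * conj a) := by
      rw [coeff_sum_apply]
      simp only [coeff_fB, blockCoeff_singleton, χ, C_one, ← mul_sum, ← map_sum, hF, cG]
      rw [sum_coe_sort S15 fun k => Cf (θ ^ k) x, a2, map_mul, map_ofNat]
      push_cast
      ring
    rw [this]
    exact mul_mem (inv_mem_V_of_val_eq_one ((val_natCast_eq_one_iff hM _).2 (by norm_num)))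
      (mul_mem (ofNat_mem _ 31) (mem_V_of_isIntegral M
        (a1.map (Complex.conjAe.toAlgHom.restrictScalars ℤ))))
  have hA : ∀ m, ¬ 11 ∣ m → ∑ z : (EE F)ˣ, (if (z ^ 11).1.im = 0 then θ z ^ m else 0) = 0 :=
    fun m hm => by
      have a1 := Fintype.sum_equiv (Equiv.mulLeft (g ^ 3))
        (fun z : (EE F)ˣ => θ g ^ (3 * m) * if (z ^ 11).1.im = 0 then θ z ^ m else 0)
        (fun z : (EE F)ˣ => if (z ^ 11).1.im = 0 then θ z ^ m else 0) fun z => by
          obtain ⟨x, hx⟩ := exists_au (h33 g)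
          have : ((g ^ 3 * z) ^ 11).1.im = x * (z ^ 11).1.im := by
            rw [mul_pow, ← pow_mul, hx, Units.val_mul, au_val]
            simp [am]
          simp only [Equiv.coe_mulLeft, this, mul_eq_zero, x.ne_zero, false_or]
          simp only [Units.val_mul, map_mul, Units.val_pow_eq_pow_val g, map_pow, mul_pow,
            ← pow_mul, mul_ite, mul_zero]
      rw [← mul_sum, ← sub_eq_zero, ← sub_one_mul, mul_eq_zero, sub_eq_zero,
        hζ.pow_eq_one_iff_dvd] at a1
      exact a1.resolve_left (by omega)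
  have hin : ∀ k : S15, classInner (fun x => β (π x)) (χ k).1 = (845680 - 63426 * t) / 2029632 :=
    fun k => by
      have hk : ∀ k ∈ S15, ¬ 11 ∣ k ∧ ¬ 11 ∣ 32 * k := by decide
      have tau' : ∀ x : Fˣ, (θ ^ k.1) (am x.1) = 1 := fun x =>
        (tk k (au x)).1.trans (by rw [au_val, tau, one_pow])
      refine inner_eq h.cl (cf_C _) (fun _ _ => 0) (fun z => -6 * conj
        ((if (z ^ 11).1.im = 0 then θ z ^ k.1 else 0) +
          if (z ^ 11).1.im = 0 then θ z ^ (32 * k.1) else 0))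
        (fun x y e => by simp [C_dg _ e]) (fun z hz => ?_) ?_
      · rw [hel z hz, C_el _ hz, (tk _ z).1, (tk _ z).2]
        split_ifs <;> simp
        ring
      · have : ∀ x : Fˣ, (au x ^ 11).1.im = 0 := fun x => by
          rw [Units.val_pow_eq_pow_val, au_val, ← map_pow, am_im]
        simp only [← mul_sum, ← map_sum, sum_add_distrib, hA _ (hk _ k.2).1, hA _ (hk _ k.2).2,
          this, if_true, au_val, tau, C_par, C_sc, tau', hpar, hsc, hF, sum_const, card_univ, cF]
        simp only [one_pow, nsmul_eq_mul, map_add, map_mul, map_natCast, map_one, map_neg, map_sub,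
          map_zero]
        push_cast
        ring
  have := h.ev _ hV hidem
  rw [map_sum] at this
  simp only [ev_fB_singleton, hin, χ, C_one, hF, sum_const, card_univ, Fintype.card_coe] at this
  have hr := rnk_le8 (op ((ρ3 δ).comp π) (∑ k, fB {χ k}))
  generalize rnk (op ((ρ3 δ).comp π) _) = r at this hr
  rw [show S15.card = 15 from rfl] at this
  rcases ht with rfl | rfl
  · have : ((310 : ℕ) : ℂ) = r := by rw [← this]; norm_num
    norm_cast at this
    omega
  · have : (r : ℂ) + 155 = 0 := by rw [← this]; norm_num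
    norm_cast at this

theorem no32 {F : Type*} [Field F] [Fintype F] (hF : Fintype.card F = 32) (f : SL(2, F) →* E83)
    (hf : ∀ g, f g = 1 → g ∈ Subgroup.center _) : False := by
  classical
  have h31 : ∀ x : F, x ≠ 0 → x ^ 31 = 1 := fun x hx => by
    simpa [hF] using FiniteField.pow_card_sub_one_eq_one x hx
  let π : GL (Fin 2) F →* SL(2, F) :=
    { toFun := fun g => ⟨g.1.det ^ 15 • g.1, by
        rw [Matrix.det_smul, Fintype.card_fin, ← pow_mul, ← pow_succ]
        exact h31 _ g.det_ne_zero⟩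
      map_one' := Subtype.ext (by simp)
      map_mul' := fun a b => Subtype.ext (by
        change _ = (a.1.det ^ 15 • a.1) * (b.1.det ^ 15 • b.1)
        simp only [Units.val_mul, Matrix.det_mul, mul_pow, smul_mul_smul_comm]) }
  refine no32' hF (f.comp π) fun g => ⟨fun e => ?_, fun e => ?_⟩
  · obtain ⟨r, -, hr⟩ := Matrix.SpecialLinearGroup.mem_center_iff.1 (hf _ e)
    have a : ∀ i j, Matrix.scalar (Fin 2) r i j = g.1.det ^ 15 * g i j := fun i j =>
      congrFun (congrFun hr i) j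
    have d0 := pow_ne_zero 15 g.det_ne_zero
    refine ⟨?_, ?_, mul_left_cancel₀ d0 ((a 0 0).symm.trans (a 1 1))⟩
    · simpa [g.det_ne_zero] using a 0 1
    · simpa [g.det_ne_zero] using a 1 0
  · obtain ⟨x, rfl⟩ := e.exists_dg
    have : π (dg x x) = 1 := Subtype.ext (by
      have := h31 x x.ne_zero
      have e : (x.1 * x.1) ^ 15 * x.1 = 1 := by rw [← this]; ring
      change _ • _ = (1 : Matrix (Fin 2) (Fin 2) F)
      ext i j
      fin_cases i <;> fin_cases j <;> simp [Matrix.det_fin_two, e])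
    rw [MonoidHom.comp_apply, this, map_one]

end H0.BC
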