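import Cfsg.Agent.H0.BC.C

/-! `E₈(3)` has no subgroup `L₂(41)`. -/

set_option autoImplicit false
set_option maxRecDepth 100000

open Cfsg H5 H7 H8 H21 Finset Module Polynomial
open H14 H14.RootSys H23.Sec Cfsg.Lie Matrix
open scoped MatrixGroups

namespace H0.BC

theorem charpoly_root {n p d : ℕ} (hp : p.Prime) (A : Matrix (Fin n) (Fin n) ℤ) (hd : d ≠ 0)
    (hA : A ^ d = 1) {c : ℤ} (h : (p : ℤ) ∣ A.charpoly.eval c) :
    ∃ e, 0 < e ∧ e.totient ≤ n ∧ (p : ℤ) ∣ c ^ e - 1 := by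
  obtain ⟨M, hM⟩ := exists_isPModular hp
  have := charP_kk hM
  set P := A.charpoly.map (Int.castRingHom ℂ) with hP
  have hm : P.Monic := A.charpoly_monic.map _
  have hr : ∀ α ∈ P.roots, α ^ d = 1 := fun α hα => by
    rcases Nat.eq_zero_or_pos n with rfl | n0
    · simp [hP, Matrix.charpoly] at hα
    have : Nonempty (Fin n) := ⟨⟨0, n0⟩⟩
    have h1 : α ∈ spectrum ℂ (A.map (Int.castRingHom ℂ)) := by
      rw [Matrix.mem_spectrum_iff_isRoot_charpoly, Matrix.charpoly_map]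
      exact (mem_roots hm.ne_zero).1 hα
    have h2 := spectrum.pow_mem_pow _ d h1
    rw [← RingHom.mapMatrix_apply, ← map_pow, hA, map_one, spectrum.one_eq] at h2
    exact h2
  have h1 : ((A.charpoly.eval c : ℤ) : ℂ) = (P.roots.map fun α => (c : ℂ) - α).prod := by
    have := (IsAlgClosed.splits P).eval_eq_prod_roots_of_monic hm (c : ℂ)
    rw [← this, hP, eval_intCast_map]
    rfl
  have h2 : ∀ s : Multiset ℂ, (∀ α ∈ s, α ^ d = 1) →
      (s.map fun α => (c : ℂ) - α).prod ∈ V M ∧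
      (red M (s.map fun α => (c : ℂ) - α).prod = 0 → ∃ α ∈ s, red M α = c) := fun s => by
    induction s using Multiset.induction_on with
    | empty => simp
    | cons a s ih =>
      intro hs
      have ha : a ∈ V M := mem_V_of_pow hd (hs a (by simp))
      have hc : (c : ℂ) - a ∈ V M := sub_mem (intCast_mem _ c) ha
      obtain ⟨i1, i2⟩ := ih fun α hα => hs α (by simp [hα])
      rw [Multiset.map_cons, Multiset.prod_cons, red_mul hc i1, mul_eq_zero,
        red_sub (intCast_mem _ c) ha, red_intCast, sub_eq_zero]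
      refine ⟨mul_mem hc i1, fun e => e.elim (fun e => ⟨a, by simp, e.symm⟩) fun e => ?_⟩
      obtain ⟨α, a1, a2⟩ := i2 e
      exact ⟨α, by simp [a1], a2⟩
  obtain ⟨α, a1, a2⟩ := (h2 _ hr).2 (by
    rw [← h1, red_intCast]; exact (CharP.intCast_eq_zero_iff _ p _).2 h)
  have a3 := IsPrimitiveRoot.orderOf α
  have a4 : 0 < orderOf α := (isOfFinOrder_iff_pow_eq_one.2 ⟨d, Nat.pos_of_ne_zero hd, hr α a1⟩).orderOf_pos
  refine ⟨_, a4, ?_, ?_⟩
  · have a5 : minpoly ℚ α ∣ A.charpoly.map (Int.castRingHom ℚ) := by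
      refine minpoly.dvd ℚ α ?_
      have := (mem_roots hm.ne_zero).1 a1
      rw [aeval_def, eval₂_map, ← eval_map, RingHom.ext_int ((algebraMap ℚ ℂ).comp _)
        (Int.castRingHom ℂ)]
      exact this.eq_zero
    rw [← cyclotomic_eq_minpoly_rat a3 a4] at a5
    have := natDegree_le_of_dvd a5 (A.charpoly_monic.map _).ne_zero
    rwa [natDegree_cyclotomic, A.charpoly_monic.natDegree_map, Matrix.charpoly_natDegree_eq_dim,
      Fintype.card_fin] at this
  · rw [← CharP.intCast_eq_zero_iff (kk M) p]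
    push_cast
    rw [← a2, ← red_pow (mem_V_of_pow hd (hr α a1)), pow_orderOf_eq_one, red_one, sub_self]

theorem Cj.mul {l u v : ℕ} {ν : Fin chevE8.rank → ℤ} (h : Cj l u ν) (h' : Cj l v ν) :
    Cj l (v * u) ν := by
  obtain ⟨w, hw, h⟩ := h
  obtain ⟨w', hw', h'⟩ := h'
  refine ⟨w * w', mul_mem hw hw', fun r => ?_⟩
  rw [← h' r, Int.cast_mul (v : ℤ), ← h (w' r)]
  push_cast
  rw [mul_assoc]
  rfl

theorem Cj.root {l u : ℕ} (hl : l.Prime) {ν : Fin chevE8.rank → ℤ} (h : Cj l u ν) {r : _}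
    (hr : ¬ (l : ℤ) ∣ rv ν r) : ∃ e, 0 < e ∧ e.totient ≤ 8 ∧ (l : ℤ) ∣ (u : ℤ) ^ e - 1 := by
  obtain ⟨w, hw, h⟩ := h
  have hw' := goodE8.R.W_le_Aut hw
  have hp : ∀ k, goodE8.R.cm w ^ k = goodE8.R.cm (w ^ k) := fun k => by
    induction k with
    | zero => simp [cm_one]
    | succ k ih => rw [pow_succ, pow_succ', cm_mul hw', ih]
  refine charpoly_root (n := chevE8.rank) hl (goodE8.R.cm w) (orderOf_pos w).ne'
    (by rw [hp, pow_orderOf_eq_one, cm_one]) ?_
  have := Fact.mk hl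
  have h1 : ∀ k r, (((ν ᵥ* goodE8.R.cm w ^ k) ⬝ᵥ goodE8.R.wt r : ℤ) : ZMod l) =
      u ^ k * (rv ν r : ℤ) := fun k => by
    induction k with
    | zero => simp
    | succ k ih =>
      intro r
      obtain ⟨r, rfl⟩ := w.surjective r
      rw [pow_succ, ← vecMul_vecMul, cm_wt hw', ih, ← h r]
      push_cast
      ring
  have h2 := congrArg (fun B => (((ν ᵥ* B) ⬝ᵥ goodE8.R.wt r : ℤ) : ZMod l))
    (goodE8.R.cm w).aeval_self_charpoly
  rw [aeval_eq_sum_range] at h2
  simp only [vecMul_sum, sum_dotProduct, vecMul_smul, smul_dotProduct, Int.cast_sum, smul_eq_mul,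
    Int.cast_mul, h1, vecMul_zero, zero_dotProduct, Int.cast_zero, ← mul_assoc, ← sum_mul] at h2
  rw [← ZMod.intCast_zmod_eq_zero_iff_dvd] at hr ⊢
  rw [eval_eq_sum_range]
  push_cast
  exact (mul_eq_zero.1 h2).resolve_right hr

theorem ex_hom {Γ E : Type*} [Group Γ] [Group E] {H : Subgroup E}
    (e : H ≃* Γ ⧸ Subgroup.center Γ) : ∃ f : Γ →* E, ∀ g, f g = 1 ↔ g ∈ Subgroup.center Γ :=
  ⟨H.subtype.comp (e.symm.toMonoidHom.comp (QuotientGroup.mk' _)), fun g => by simp⟩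

theorem no41 {F : Type*} [Field F] [Fintype F] (hF : Fintype.card F = 41) (f : SL(2, F) →* E83)
    (hf : ∀ g, f g = 1 → g ∈ Subgroup.center _) : False := by
  obtain ⟨M, δ, β, hM, h, -⟩ := ex_bc8
  have c41 : ((41 : ℕ) : F) = 0 := hF ▸ FiniteField.cast_card_eq_zero F
  have c17 : (17 : F) * 29 = 1 := by push_cast at c41; linear_combination 12 * c41
  let x : SL(2, F) := ⟨!![1, 1; 0, 1], by simp⟩
  let a : SL(2, F) := ⟨!![17, 0; 0, 29], by simp [c17]⟩
  have hx : ∀ n : ℕ, (x ^ n).1 = !![1, (n : F); 0, 1] := fun n => by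
    induction n with
    | zero => simp [one_fin_two]
    | succ n ih =>
      rw [pow_succ]
      refine (congrArg (· * x.1) ih).trans ?_
      simp [x, add_comm]
  have h1 : x ^ 41 = 1 := Subtype.ext ((hx 41).trans (by rw [c41, ← one_fin_two]; rfl))
  have h2 : a * x = x ^ 2 * a := Subtype.ext (Eq.trans (b := a.1 * x.1) rfl
    (Eq.trans ?_ (congrArg (· * a.1) (hx 2)).symm))
  swap
  · push_cast at c41
    simp [a, x]
    linear_combination -c41
  obtain ⟨ν, -, -, -, h3, h4, h5⟩ := h.tor8 hM (l := 41) (by norm_num)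
    (Complex.isPrimitiveRoot_exp 41 (by norm_num)) (s := f x) (by rw [← map_pow, h1, map_one])
  have h6 := h4.mul (h5 (f a) 2 (by rw [← map_mul, h2, map_mul, mul_inv_cancel_right, map_pow]))
  have h7 : ¬ ∀ r, ((41 : ℕ) : ℤ) ∣ rv ν r := fun e => by
    have := Subgroup.mem_center_iff.1 (hf x (by simpa using h3 1 (by simpa using e)))
      ⟨!![1, 0; 1, 1], by simp⟩
    have : (!![1, 0; 1, 1] * !![1, 1; 0, 1] : Matrix (Fin 2) (Fin 2) F) 0 0 =
        (!![1, 1; 0, 1] * !![1, 0; 1, 1] : Matrix (Fin 2) (Fin 2) F) 0 0 := congrArg (fun g : SL(2, F) => g.1 0 0) this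
    simp at this
  push Not at h7
  obtain ⟨r, hr⟩ := h7
  obtain ⟨e, e0, e1, e2⟩ := h6.root (by norm_num) hr
  have e3 : 40 ∣ e := by
    have : orderOf (6 : ZMod 41) = 40 := by
      rw [orderOf_eq_iff (by norm_num)]
      decide +kernel
    rw [← this, orderOf_dvd_iff_pow_eq_one, ← sub_eq_zero]
    exact_mod_cast (ZMod.intCast_zmod_eq_zero_iff_dvd _ 41).2 e2
  have := Nat.le_of_dvd (Nat.totient_pos.2 e0) (Nat.totient_dvd_of_dvd e3)
  have e4 : Nat.totient 40 = 16 := by decide +kernel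
  omega

end H0.BC
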