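import Cfsg.Agent.H0.BC.Sp6

/-! A computable model for elements of `PSU₄(3)` and certificates. -/

set_option autoImplicit false
set_option maxRecDepth 100000

open Cfsg MonoidAlgebra H5 H7 H8 H21 Finset Module Matrix

namespace H0.BC

namespace U4

/-- pack real and imaginary parts -/
def pk (P Q : ℕ) : ℕ := Nat.add P (Nat.shiftLeft Q 32)

/-- minimum -/
def mn (a b : ℕ) : ℕ := cond (Nat.ble a b) a b

/-- product modulo scalars -/
noncomputable def mul (a b : ℕ) : ℕ :=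
  frc a fun a => frc b fun b => frc (Nat.shiftRight a 32) fun a' => frc (Nat.shiftRight b 32) fun b' =>
  frc (mulc 4 a b) fun x => frc (mulc 4 a' b') fun y => frc (mulc 4 a b') fun z =>
  frc (mulc 4 a' b) fun w => frc (linc 4 1 x 2 y) fun P => frc (linc 4 1 z 1 w) fun Q =>
  frc (linc 4 2 P 0 P) fun P' => frc (linc 4 2 Q 0 Q) fun Q' =>
  frc (mn (pk P Q) (pk Q' P)) fun u => frc (mn (pk P' Q') (pk Q P')) fun v => mn u v

/-- product in the field -/
def cm (x y : ℕ × ℕ) : ℕ × ℕ := (x.1 * y.1 + 2 * (x.2 * y.2), x.1 * y.2 + x.2 * y.1)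

/-- sum in the field -/
def ca (x y : ℕ × ℕ) : ℕ × ℕ := (x.1 + y.1, x.2 + y.2)

/-- difference in the field -/
def cs (x y : ℕ × ℕ) : ℕ × ℕ := (x.1 + 2 * y.1, x.2 + 2 * y.2)

/-- entry -/
def en (a i j : ℕ) : ℕ × ℕ := (dig a (4 * i + j), dig (Nat.shiftRight a 32) (4 * i + j))

/-- minor -/
def mi (a i j k : ℕ) : ℕ × ℕ := cs (cm (en a i j) (en a (i + 1) k)) (cm (en a i k) (en a (i + 1) j))

/-- determinant -/
def dtc (a : ℕ) : ℕ × ℕ :=
  ca (cs (ca (ca (cs (cm (mi a 0 0 1) (mi a 2 2 3)) (cm (mi a 0 0 2) (mi a 2 1 3)))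
    (cm (mi a 0 0 3) (mi a 2 1 2))) (cm (mi a 0 1 2) (mi a 2 0 3))) (cm (mi a 0 1 3) (mi a 2 0 2)))
    (cm (mi a 0 2 3) (mi a 2 0 1))

/-- membership test -/
noncomputable def okB (a : ℕ) : Bool :=
  frc a fun a => frc (Nat.shiftRight a 32) fun b => frc (trc 4 a) fun a' => frc (trc 4 b) fun b' =>
  frc (mulc 4 a' a) fun x => frc (mulc 4 b' b) fun y => frc (mulc 4 b' a) fun z =>
  frc (mulc 4 a' b) fun w => Nat.beq (linc 4 1 x 1 y) 1074791425 && (Nat.beq z w &&
    (Nat.beq ((dtc a).1 % 3) 1 && Nat.beq ((dtc a).2 % 3) 0))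

variable {F : Type*} [Field F] [CharP F 3] (i : F)

/-- decoding of a real matrix -/
abbrev mr (F : Type*) [Field F] (a : ℕ) : Matrix (Fin 4) (Fin 4) F := mat (Equiv.refl _) F a

/-- decoding -/
def mt (a : ℕ) : Matrix (Fin 4) (Fin 4) F := mr F a + i • mr F (Nat.shiftRight a 32)

theorem dig_add {t N : ℕ} (h : t < N) (P Q : ℕ) : dig (P + Q * 4 ^ N) t = dig P t := by
  obtain ⟨m, rfl⟩ := Nat.exists_eq_add_of_lt h
  rw [dig_eq, dig_eq, show Q * 4 ^ (t + m + 1) = 4 ^ t * (4 * (Q * 4 ^ m)) by ring,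
    Nat.add_mul_div_left _ _ (by positivity), Nat.add_mul_mod_self_left]

theorem pk_eq (P Q : ℕ) : pk P Q = P + Q * 4 ^ 16 := by
  have : pk P Q = P + Q <<< 32 := rfl
  rw [this, Nat.shiftLeft_eq]
  norm_num

theorem pk_shift {P : ℕ} (h : P < 4 ^ 16) (Q : ℕ) : Nat.shiftRight (pk P Q) 32 = Q := by
  have : ∀ a, Nat.shiftRight a 32 = a / 4 ^ 16 := fun a =>
    (Nat.shiftRight_eq_div_pow a 32).trans (by norm_num)
  rw [this, pk_eq, Nat.add_mul_div_right _ _ (by positivity), Nat.div_eq_of_lt h, zero_add]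

omit [CharP F 3] in
theorem mt_pk {P : ℕ} (h : P < 4 ^ 16) (Q : ℕ) : mt i (pk P Q) = mr F P + i • mr F Q := by
  rw [mt, pk_shift h, pk_eq]
  congr 1
  ext j k
  have := j.2
  have := k.2
  simp only [mat, Matrix.of_apply, Equiv.refl_apply]
  rw [dig_add (by omega)]

theorem two_eq : ((2 : ℕ) : F) = -1 := by
  have := CharP.cast_eq_zero F 3
  push_cast at this ⊢
  linear_combination this

variable {i}

theorem mt_mul (hi : i * i = -1) (a b : ℕ) :
    ∃ c : F, c ^ 4 = 1 ∧ mt i (mul a b) = c • (mt i a * mt i b) := by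
  have h4 : i ^ 4 = 1 := by linear_combination (i * i - 1) * hi
  have lt : ∀ a A b B, linc 4 a A b B < 4 ^ 16 := fun _ _ _ _ => enc_lt _ _
  have mnc : ∀ (p : ℕ → Prop) u v, p u → p v → p (mn u v) := fun p u v hu hv => by
    unfold mn
    cases Nat.ble u v
    exacts [hv, hu]
  simp only [mul, frc_eq]
  refine mnc (fun u => ∃ c : F, c ^ 4 = 1 ∧ mt i u = c • (mt i a * mt i b)) _ _
    (mnc (fun u => ∃ c : F, c ^ 4 = 1 ∧ mt i u = c • (mt i a * mt i b)) _ _ ⟨1, by simp, ?_⟩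
      ⟨i, h4, ?_⟩)
    (mnc (fun u => ∃ c : F, c ^ 4 = 1 ∧ mt i u = c • (mt i a * mt i b)) _ _ ⟨-1, by norm_num, ?_⟩
      ⟨-i, by rw [← h4]; ring, ?_⟩)
  all_goals
    rw [mt_pk i (lt _ _ _ _)]
    simp only [mt, mr, mat_linc, mat_mulc, two_eq, Nat.cast_one, Nat.cast_zero, add_mul, mul_add,
      smul_mul_assoc, mul_smul_comm, smul_smul, hi]
    match_scalars <;> first | ring1 | linear_combination hi | linear_combination -hi |
      linear_combination i * hi | linear_combination -i * hi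

/-- value of a pair -/
def vl (i : F) (x : ℕ × ℕ) : F := x.1 + i * x.2

theorem det_mt (hi : i * i = -1) (a : ℕ) : (mt i a).det = vl i (dtc a) := by
  have h1 : ∀ x y, vl i (cm x y) = vl i x * vl i y := fun x y => by
    simp only [vl, cm, Nat.cast_add, Nat.cast_mul, two_eq]
    linear_combination -(x.2 * y.2 : F) * hi
  have h2 : ∀ x y, vl i (ca x y) = vl i x + vl i y := fun x y => by
    simp only [vl, ca, Nat.cast_add]; ring
  have h3 : ∀ x y, vl i (cs x y) = vl i x - vl i y := fun x y => by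
    simp only [vl, cs, Nat.cast_add, Nat.cast_mul, two_eq]; ring
  have h4 : ∀ j k : Fin 4, mt i a j k = vl i (en a j k) := fun j k => rfl
  simp only [dtc, mi, h1, h2, h3]
  simp [det_succ_row_zero, Fin.sum_univ_succ, Fin.succAbove, h4]
  ring

theorem okB_spec (hi : i * i = -1) {a : ℕ} (h : okB a = true) :
    ∃ g : SU 4 F 3, (g.1 : Matrix (Fin 4) (Fin 4) F) = mt i a := by
  simp only [okB, frc_eq, Nat.beq_eq, Bool.and_eq_true] at h
  obtain ⟨h1, h2, h3, h4⟩ := h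
  have a1 := congrArg (mr F) h1
  have a2 := congrArg (mr F) h2
  have a3 : mr F 1074791425 = 1 := by
    have : ∀ j k : Fin 4, dig 1074791425 (4 * j + k) = if j = k then 1 else 0 := by decide +kernel
    ext j k
    simp [mat, this, one_apply]
  rw [a3] at a1
  simp only [mr, mat_linc, mat_mulc, mat_trc, Nat.cast_one, one_smul] at a1 a2
  have a4 : ∀ b, (mr F b).map (frobenius F 3) = mr F b := fun b => by
    ext j k; simp [mat]
  have a5 : (mt i a).map (frobenius F 3) = mr F a - i • mr F (Nat.shiftRight a 32) := by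
    have : frobenius F 3 i = -i := by rw [frobenius_def]; linear_combination i * hi
    rw [← a4, ← a4 (Nat.shiftRight a 32)]
    ext j k
    simp [mt, this, sub_eq_add_neg]
  have a6 : (mt i a)ᵀ * (mt i a).map (frobenius F 3) = 1 := by
    rw [a5, mt, transpose_add, transpose_smul, ← a1]
    simp only [mr, add_mul, mul_sub, smul_mul_assoc, mul_smul_comm, smul_smul, hi, a2]
    match_scalars <;> first | ring1 | linear_combination hi | linear_combination -hi
  refine ⟨⟨⟨mt i a, ?_⟩, fun u v => ?_⟩, rfl⟩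
  · rw [det_mt hi, vl, CharP.cast_eq_mod F 3, CharP.cast_eq_mod F 3 (dtc a).2, h3, h4]; simp
  · change (mt i a *ᵥ u) ⬝ᵥ (frobenius F 3 ∘ (mt i a *ᵥ v)) = u ⬝ᵥ (frobenius F 3 ∘ v)
    rw [show frobenius F 3 ∘ (mt i a *ᵥ v) = (mt i a).map (frobenius F 3) *ᵥ (frobenius F 3 ∘ v) from
      funext fun j => RingHom.map_mulVec _ _ _ j, ← vecMul_transpose, ← dotProduct_mulVec,
      mulVec_mulVec, a6, one_mulVec]

/-- scalars -/
def scal (c : F) (h : c ^ 4 = 1) : SU 4 F 3 :=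
  ⟨⟨c • 1, by simpa using h⟩, fun u v => by
    change ∑ j, ((c • (1 : Matrix _ _ F)) *ᵥ u) j * ((c • (1 : Matrix _ _ F)) *ᵥ v) j ^ 3 = _
    simp only [smul_mulVec, one_mulVec, Pi.smul_apply, smul_eq_mul]
    exact sum_congr rfl fun j _ => by linear_combination u j * v j ^ 3 * h⟩

theorem ex_mdl (hi : i * i = -1) {E : Type*} [Group E] (f : SU 4 F 3 →* E)
    (hf : ∀ g, f g = 1 ↔ g ∈ Subgroup.center _) : ∃ m : Mdl E ℕ, mul = m.mul ∧ 1074791425 = m.one ∧
    (∀ c, okB c = true → m.ok c) ∧ ∀ a b, m.ok a → okB b = true → mt i a * mt i b ≠ mt i b * mt i a →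
      m.φ a ≠ 1 := by
  classical
  let φ : ℕ → E := fun a =>
    if h : ∃ g : SU 4 F 3, (g.1 : Matrix (Fin 4) (Fin 4) F) = mt i a then f h.choose else 1
  have hφ : ∀ a (g : SU 4 F 3), (g.1 : Matrix (Fin 4) (Fin 4) F) = mt i a → φ a = f g :=
    fun a g e => by
      have h : ∃ g : SU 4 F 3, (g.1 : Matrix (Fin 4) (Fin 4) F) = mt i a := ⟨g, e⟩
      simp only [φ, dif_pos h]
      exact congrArg f (Subtype.ext (Subtype.ext (h.choose_spec.trans e.symm)))
  have key : ∀ a b (g h : SU 4 F 3), (g.1 : Matrix (Fin 4) (Fin 4) F) = mt i a →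
      (h.1 : Matrix (Fin 4) (Fin 4) F) = mt i b → ∃ k : SU 4 F 3,
        (k.1 : Matrix (Fin 4) (Fin 4) F) = mt i (mul a b) ∧ f k = f g * f h := fun a b g h e e' => by
    obtain ⟨c, c1, c2⟩ := mt_mul hi a b
    refine ⟨scal c c1 * (g * h), ?_, ?_⟩
    · rw [c2, ← e, ← e']
      exact (smul_mul_assoc _ _ _).trans (by rw [one_mul]; rfl)
    · rw [map_mul, map_mul, (hf _).2 (Subgroup.mem_center_iff.2 fun k => Subtype.ext (Subtype.ext
        ((mul_smul_comm _ _ _).trans ((smul_mul_assoc _ _ _).trans (by simp)).symm))), one_mul]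
  have h1 : ((1 : SU 4 F 3).1 : Matrix (Fin 4) (Fin 4) F) = mt i 1074791425 := by
    have : ∀ j k : Fin 4, dig 1074791425 (4 * j + k) = (if j = k then 1 else 0) ∧
      dig 0 (4 * j + k) = 0 := by decide +kernel
    ext j k
    simp [mt, mat, this, one_apply]
  refine ⟨⟨mul, 1074791425, fun a => ∃ g : SU 4 F 3, (g.1 : Matrix (Fin 4) (Fin 4) F) = mt i a, φ,
    (hφ _ 1 h1).trans (map_one f), ⟨1, h1⟩, ?_, ?_⟩, ?_, ?_, fun _ h => okB_spec hi h, ?_⟩
  · rintro a b ⟨g, e⟩ ⟨h, e'⟩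
    exact (key a b g h e e').imp fun _ h => h.1
  · rintro a b ⟨g, e⟩ ⟨h, e'⟩
    obtain ⟨k, k1, k2⟩ := key a b g h e e'
    rw [hφ _ _ k1, hφ _ _ e, hφ _ _ e', k2]
  · simp only
  · simp only
  · rintro a b ⟨g, e⟩ hb h e'
    obtain ⟨k, hk⟩ := okB_spec hi hb
    rw [← e, ← hk] at h
    exact h (congrArg (fun g : SU 4 F 3 => (g.1 : Matrix (Fin 4) (Fin 4) F))
      (Subgroup.mem_center_iff.1 ((hf _).1 ((hφ _ _ e).symm.trans e')) k)).symm

end U4

end H0.BC
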