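import Cfsg.Agent.H0.BC.U4b

/-! `E₈(3)` has no subgroup `PSU₄(3)`. -/

set_option autoImplicit false
set_option maxRecDepth 100000

open Cfsg MonoidAlgebra H5 H7 H8 H21 Finset Module H23.Sec

namespace H0.BC

theorem nine_le {k X : Type*} [Field k] [CharP k 3] [AddCommGroup X] [Module k X]
    [FiniteDimensional k X] {P a b : End k X} (haP : Commute a P) (hbP : Commute b P)
    (hab : Commute a b) (ha : a * (a * a) = 1) (hb : b * (b * b) = 1)
    (h : (1 + (a + a * a)) * (1 + (b + b * b)) * P ≠ 0) : 9 ≤ rnk P := by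
  have h3 : (3 : End k X) = 0 := by
    have := congrArg (algebraMap k (End k X)) (CharP.cast_eq_zero k 3)
    rwa [map_natCast, map_zero] at this
  have e1 : ∀ a : End k X, 1 + (a + a * a) = (a - 1) * (a - 1) := fun a => by
    have : (a - 1) * (a - 1) = 1 + (a + a * a) - 3 * a := by noncomm_ring
    rw [this, h3, zero_mul, sub_zero]
  have e2 : ∀ a : End k X, a * (a * a) = 1 → ∀ x, (a - 1) ((a - 1) ((a - 1) x)) = 0 :=
    fun a ha x => by
      have : (a - 1) * ((a - 1) * (a - 1)) = a * (a * a) - 1 - 3 * (a * a - a) := by noncomm_ring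
      rw [ha, h3, zero_mul, sub_self, sub_zero] at this
      exact congrArg (· x) this
  rw [e1, e1] at h
  have hA := e2 a ha
  have hB := e2 b hb
  have c1 : Commute (a - 1) P := haP.sub_left (.one_left _)
  have c2 : Commute (b - 1) P := hbP.sub_left (.one_left _)
  have c3 : ∀ x, (b - 1) ((a - 1) x) = (a - 1) ((b - 1) x) := fun x => congrArg (· x)
    ((hab.sub_left (.one_left _)).sub_right (.one_right _)).symm.eq
  generalize a - 1 = A at *
  generalize b - 1 = B at *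
  obtain ⟨v, hv⟩ := DFunLike.ne_iff.1 h
  change A (A (B (B (P v)))) ≠ 0 at hv
  have key : ∀ c0 c1 c2 : k, A (A (c0 • P v + c1 • B (P v) + c2 • B (B (P v)))) = 0 →
      c0 = 0 ∧ c1 = 0 ∧ c2 = 0 := fun c0 c1 c2 e => by
    have a0 := congrArg (fun x => B (B x)) e
    simp only [map_add, map_smul, c3, hB, map_zero, smul_zero, add_zero, smul_eq_zero, hv,
      or_false] at a0
    have a1 := congrArg B e
    simp only [a0, map_add, map_smul, c3, hB, map_zero, smul_zero, add_zero, smul_eq_zero, hv,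
      or_false, zero_smul, zero_add] at a1
    simp only [a0, a1, map_smul, smul_eq_zero, hv, or_false, zero_smul, zero_add] at e
    exact ⟨a0, a1, e⟩
  have li : LinearIndependent k fun p : Fin 3 × Fin 3 => (A ^ p.1.1 * B ^ p.2.1) (P v) := by
    rw [Fintype.linearIndependent_iff]
    intro c e
    have e' : (c (0, 0) • P v + c (0, 1) • B (P v) + c (0, 2) • B (B (P v))) +
        A (c (1, 0) • P v + c (1, 1) • B (P v) + c (1, 2) • B (B (P v))) +
        A (A (c (2, 0) • P v + c (2, 1) • B (P v) + c (2, 2) • B (B (P v)))) = 0 := by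
      rw [← e]
      simp [Fintype.sum_prod_type, Fin.sum_univ_three, sq]
    have a0 := congrArg (fun x => A (A x)) e'
    simp only [map_add A _ (A _), hA, map_zero, add_zero] at a0
    obtain ⟨b0, b1, b2⟩ := key _ _ _ a0
    simp only [b0, b1, b2, zero_smul, zero_add] at e'
    have a1 := congrArg A e'
    simp only [map_add A _ (A _), hA, map_zero, add_zero] at a1
    obtain ⟨b3, b4, b5⟩ := key _ _ _ a1
    simp only [b3, b4, b5, zero_smul, zero_add, map_zero] at e'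
    obtain ⟨b6, b7, b8⟩ := key _ _ _ e'
    rintro ⟨i, j⟩
    fin_cases i <;> fin_cases j <;> assumption
  have := finrank_span_eq_card li
  refine le_trans (by rw [this]; simp) (Submodule.finrank_mono (Submodule.span_le.2 ?_))
  rintro _ ⟨p, rfl⟩
  exact ⟨_, congrArg (· v) ((c1.pow_left _).mul_left (c2.pow_left _)).symm.eq⟩

theorem Mdl.commute_sumL {G : Type*} [Group G] {C : Type} {m : Mdl G C} {L : List (C × ℤ)}
    {e : ℂ[G]} (h : ∀ g ∈ L, Commute (m.sg g) e) : Commute (m.sumL L) e :=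
  Commute.list_sum_left _ _ (by
    simp only [List.mem_map]
    rintro _ ⟨g, hg, rfl⟩
    exact h g hg)

theorem range_map_eq {n : ℕ} {f : ℕ → ℤ} {L : List ℤ} (h : (List.range n).map f = L) {l : ℕ}
    (hl : l ∈ range n) : f l = L.getD l 0 := by
  simp [← h, List.getD_eq_getElem?_getD, mem_range.1 hl]

namespace U4

variable {E : Type*} [Group E] {m : Mdl E ℕ} (m1 : mul = m.mul) (m2 : 1074791425 = m.one)
  (m3 : ∀ c, okB c = true → m.ok c)

include m3 in
theorem oks : m.Ok gK ∧ m.Ok gQ ∧ m.Ok LT ∧ m.Ok LX ∧ m.Ok LY ∧ m.Ok W2 := by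
  have := chO.1
  simp only [List.forall_mem_append] at this
  obtain ⟨a, b, c, d, e, f⟩ := this
  exact ⟨fun g h => m3 _ (a g h), fun g h => m3 _ (b g h), fun g h => m3 _ (c g h),
    fun g h => m3 _ (d g h), fun g h => m3 _ (e g h), fun g h => m3 _ (f g h)⟩

include m1 m2 m3

theorem st_sq : m.Ok LS ∧ m.sumL LS = m.sumL LT * (m.sumL LX * m.sumL LY) * m.sumL W2 ∧
    m.sumL LS * m.sumL LS = (40 : ℂ) • m.sumL LS := by
  obtain ⟨-, -, oT, oX, oY, oW⟩ := oks m3
  have k := chB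
  rw [m1, m2] at k
  obtain ⟨k1, k2, k3, k4, k5, k6⟩ := k
  have oB : m.Ok LB := by rw [← k1]; exact oT.lmul (oX.lmul oY)
  have oS : m.Ok LS := by rw [← k2]; exact oB.lmul oW
  have eS : m.sumL LS = m.sumL LB * m.sumL W2 := by rw [← k2, Mdl.sumL_lmul oB oW]
  refine ⟨oS, by rw [eS, ← k1, Mdl.sumL_lmul oT (oX.lmul oY), Mdl.sumL_lmul oX oY], ?_⟩
  have h1 : ∀ g ∈ LT ++ (LX ++ LY), m.ok g.1 ∧ m.sumL LB * m.sg g = m.sumL LB := fun g hg => by
    have := (oT.append (oX.append oY)) g hg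
    exact ⟨this, by rw [Mdl.sumL_mul_sg this oB, Mdl.sumL_perm (k3 g hg)]⟩
  simp only [List.forall_mem_append] at h1
  have cl : ∀ a b : ℕ × ℤ, m.ok a.1 ∧ m.sumL LB * m.sg a = m.sumL LB →
      m.ok b.1 ∧ m.sumL LB * m.sg b = m.sumL LB → m.ok (m.mul a.1 b.1, a.2 * b.2).1 ∧
        m.sumL LB * m.sg (m.mul a.1 b.1, a.2 * b.2) = m.sumL LB := fun a b ha hb =>
    ⟨m.ok_mul ha.1 hb.1, by rw [Mdl.sg_mul ha.1 hb.1, ← mul_assoc, ha.2, hb.2]⟩
  have h2 := Mdl.mem_lmul (R := fun a => m.ok a.1 ∧ m.sumL LB * m.sg a = m.sumL LB) cl h1.1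
    (Mdl.mem_lmul (R := fun a => m.ok a.1 ∧ m.sumL LB * m.sg a = m.sumL LB) cl h1.2.1 h1.2.2)
  rw [k1] at h2
  have h3 := Mdl.map_sumL (m := m) (LinearMap.mulLeft ℂ (m.sumL LB))
    (fun k => m.sumL LB * single (m.φ (R10.getD k 0)) 1) 10 _ _
    (all2_spec id (fun a k ha e => ?_) _ _ (oW.lmul oS) k4)
  · rw [List.map_id, sum_congr rfl fun l hl => by rw [range_map_eq k6 hl], LinearMap.mulLeft_apply,
      Mdl.sumL_lmul oW oS, ← mul_assoc, ← eS] at h3
    rw [h3, eS]
    simp [sum_range_succ, R10, W2, Mdl.sg, mul_add, single_neg]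
  · rw [decide_eq_true_eq] at e
    obtain ⟨a1, a2, a3⟩ := k5 k e.1
    have a4 := congrArg m.φ a3
    rw [m.φ_mul (m3 _ a2) (m3 _ a1), m.φ_one] at a4
    refine ⟨e.1, ?_⟩
    conv_rhs => rw [← (h2 _ e.2).2]
    rw [LinearMap.mulLeft_apply, mul_assoc, Mdl.sg, single_mul_single, m.φ_mul ha (m3 _ a2), id,
      mul_assoc, a4]
    simp

theorem q_facts : m.Ok LQ ∧ m.sumL LQ * m.sumL LQ = ((16 : ℕ) : ℂ) • m.sumL LQ ∧
    ∀ g ∈ LT ++ (LX ++ (LY ++ W2)), Commute (m.sg g) (m.sumL LQ) := by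
  obtain ⟨-, oQ, oT, oX, oY, oW⟩ := oks m3
  have k := chQ
  rw [m1, m2] at k
  obtain ⟨k1, k2, -, k4⟩ := k
  have o : m.Ok LQ := by rw [← k1]; exact oQ.bld
  refine ⟨o, by rw [Mdl.bld_sq oQ k1 k2, show LQ.length = 16 by decide +kernel], fun g hg => ?_⟩
  have := (oT.append (oX.append (oY.append oW))) g hg
  rw [Commute, SemiconjBy, Mdl.sg_mul_sumL this o, Mdl.sumL_mul_sg this o, Mdl.sumL_perm (k4 g hg)]

end U4

open U4 in
theorem noU4 {F : Type*} [Field F] [Fintype F] (hF : Fintype.card F = 9) (f : SU 4 F 3 →* E83)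
    (hf : ∀ g, f g = 1 ↔ g ∈ Subgroup.center _) : False := by
  have c3 : CharP F 3 := by
    have : ((9 : ℕ) : F) = 0 := hF ▸ FiniteField.cast_card_eq_zero F
    refine (CharP.charP_iff_prime_eq_zero Nat.prime_three).2
      (pow_eq_zero_iff (n := 2) (by norm_num) |>.1 ?_)
    push_cast at this ⊢
    linear_combination this
  obtain ⟨i, hi⟩ := (FiniteField.isSquare_neg_one_iff (F := F)).2 (by rw [hF]; norm_num)
  obtain ⟨M, δ, β, hM, h, -⟩ := ex_bc8
  obtain ⟨m, m1, m2, m3, m4⟩ := ex_mdl hi.symm f hf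
  obtain ⟨oK, -, oT, oX, oY, oW⟩ := oks m3
  obtain ⟨oS, s1, s2⟩ := st_sq m1 m2 m3
  obtain ⟨oQ, q1, q2⟩ := q_facts m1 m2 m3
  have kK := chK
  have kQ := chQ.2.2.1
  have kE := chE
  have kC := chC
  have kO := chO.2
  rw [m1] at kK kQ kE kC kO
  rw [m2] at kK kQ kE kO
  obtain ⟨oR, c1, c2, c3, c4, c5, c6, c7, c8, c9, c10, c11⟩ := kO
  have hR : ∀ c ∈ R, m.ok c := fun a ha => m3 _ (oR a ha)
  have ev : ∀ {L K V}, m.Ok L → all2 (tst m.mul m.one) L K = true →
      (List.range 10).map (fun l => coef l L (K.map Prod.fst)) = V →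
      H7.ev β (m.sumL L) = ∑ l ∈ range 10, (V.getD l 0 : ℂ) * β (m.φ (R.getD l m.one)) :=
    fun o a b => (Mdl.ev_cert h.cl m3 hR o a).trans
      (sum_congr rfl fun l hl => by rw [range_map_eq b hl])
  have hK := h.quasi hM (m.sumL_mem M LK) (n := 128) (by norm_num) (by
    rw [Mdl.bld_sq oK kK.1 kK.2.1, show LK.length = 128 by decide +kernel])
  rw [ev (by rw [← kK.1]; exact oK.bld) kK.2.2 kC.1] at hK
  have hQ := h.quasi hM (m.sumL_mem M LQ) (n := 16) (by norm_num) q1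
  rw [ev oQ kQ kC.2.1] at hQ
  simp only [List.forall_mem_append] at q2
  have cT := Mdl.commute_sumL q2.1
  have cXY := (Mdl.commute_sumL q2.2.1).mul_left (Mdl.commute_sumL q2.2.2.1)
  have cS : Commute (m.sumL LS) (m.sumL LQ) := by
    rw [s1]; exact (cT.mul_left cXY).mul_left (Mdl.commute_sumL q2.2.2.2)
  have hE := h.quasi hM (m.sumL_mem M (lmul m.mul LQ LS)) (n := 640) (by norm_num) (by
    rw [Mdl.sumL_lmul oQ oS, cS.mul_mul_mul_comm, q1, s2, smul_mul_smul_comm]; norm_num)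
  rw [ev (oQ.lmul oS) kE kC.2.2, Mdl.sumL_lmul oQ oS] at hE
  simp only [sum_range_succ, sum_range_zero, R, List.getD_cons_succ, List.getD_cons_zero] at hK hQ hE
  rw [m2, m.φ_one, h.one8] at hK hQ hE
  have o2 := hR 1074792450 (by simp [R])
  have o4 := hR 4403417317376 (by simp [R])
  have o4' := hR 18014415957787136 (by simp [R])
  have o8 := hR 4503617880981760 (by simp [R])
  have o5 := hR 93898094804992 (by simp [R])
  have o5' := hR 1334341070361862532 (by simp [R])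
  have ox := oX (17842180, 1) (by simp [LX])
  have ox' := oX (68157760, 1) (by simp [LX])
  have oy := oY (1452971353, 1) (by simp [LY])
  have oy' := oY (1767204517, 1) (by simp [LY])
  have e1 := (congrArg m.φ c1).symm.trans (m.φ_mul o8 o8)
  have e2 := (congrArg m.φ c2).symm.trans (m.φ_mul o4 o4)
  have e3 := (congrArg m.φ c3).symm.trans (m.φ_mul o4' o4')
  have e4 := m.φ_one.symm.trans ((congrArg m.φ c4).symm.trans (m.φ_mul o2 o2))
  have e5 := (congrArg m.φ c5).symm.trans (m.φ_mul o5 o5)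
  have e6 := m.φ_one.symm.trans ((congrArg m.φ c6).symm.trans (m.φ_mul o5' (m.ok_mul o5' o5)))
  have e7 := (congrArg m.φ c7).symm.trans (m.φ_mul ox ox)
  have e8 := m.φ_one.symm.trans ((congrArg m.φ c8).symm.trans (m.φ_mul ox ox'))
  have e9 := (congrArg m.φ c9).symm.trans (m.φ_mul oy oy)
  have e10 := m.φ_one.symm.trans ((congrArg m.φ c10).symm.trans (m.φ_mul oy oy'))
  have e11 := (m.φ_mul ox oy).symm.trans ((congrArg m.φ c11).trans (m.φ_mul oy ox))
  rw [m.φ_mul o5' o5] at e6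
  have n2 : m.φ 1074792450 ≠ 1 := m4 _ 17842180 o2 (by decide +kernel) fun e => by
    have := congrFun (congrFun e 1) 3
    simp [U4.mt, mat, Matrix.mul_apply, Fin.sum_univ_four, dig_eq] at this
    exact one_ne_zero (α := F) (by linear_combination this)
  have xQ := q2.2.1 (17842180, 1) (by simp [LX])
  have yQ := q2.2.2.1 (1452971353, 1) (by simp [LY])
  have eX : m.sumL LX = 1 + (m.sg (17842180, 1) + m.sg (17842180, 1) * m.sg (17842180, 1)) := by
    simp [LX, Mdl.sg, m2, m.φ_one, e7, single_mul_single, one_def]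
  have eY : m.sumL LY =
      1 + (m.sg (1452971353, 1) + m.sg (1452971353, 1) * m.sg (1452971353, 1)) := by
    simp [LY, Mdl.sg, m2, m.φ_one, e9, single_mul_single, one_def]
  simp only [Mdl.sg, Int.cast_one] at xQ yQ eX eY
  rw [e7] at e8
  rw [e9] at e10
  generalize m.φ 17842180 = x at *
  generalize m.φ 1452971353 = y at *
  generalize m.φ 4503617880981760 = s at *
  generalize m.φ 18014415957787136 = u at *
  generalize m.φ 93898094804992 = z at *
  have e12 : m.φ 1074792450 = s ^ 4 := by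
    rw [e2, e1]; simp only [pow_succ, pow_zero, one_mul, mul_assoc]
  obtain ⟨t, ht, t1, t2, t3⟩ := h.tab8 hM (s := s) (by rw [e4, e12, ← pow_add])
  have e13 : u ^ 4 = 1 := by rw [e4, e3]; simp only [pow_succ, pow_zero, one_mul, mul_assoc]
  obtain ⟨t', ht', t1', t2', t3'⟩ := h.tab8 hM (s := u) (by
    rw [show 8 = 4 * 2 from rfl, pow_mul, e13, one_pow])
  rw [e13, h.one8] at t3'
  rw [sq, ← e3, e12, t3] at t2'
  have t4 : t.2.2 ≠ 248 := fun e => n2 (h.eq_one8 hM (l := 2) (by norm_num) (by rw [sq, ← e4])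
    (by rw [e12, t3, e]; norm_num))
  obtain ⟨c, -, hc⟩ := h.unif hM (l := 5) (by norm_num) (by norm_num) (by decide) (s := z) (by
    rw [e6, e5]; simp only [pow_succ, pow_zero, one_mul, mul_assoc])
  have z1 := hc 1 (by norm_num)
  have z2 := hc 2 (by norm_num)
  rw [pow_one] at z1
  rw [e12, e1, e5, ← sq, ← sq, t1, t2, t3, t1', z1, z2] at hK hQ hE
  have key : ∀ t ∈ T8, t.2.2 ≠ 248 → ∀ t' ∈ T8, t.2.2 = t'.2.1 → 248 = t'.2.2 →
    (0 : ℤ) ≤ 248 + 3 * t.2.2 + 20 * t.2.1 - 40 * t'.1 + 16 * t.1 →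
    128 ∣ 248 + 3 * t.2.2 + 20 * t.2.1 - 40 * t'.1 + 16 * t.1 → t = (0, 8, -8) ∧ t'.1 = 0 := by
    decide +kernel
  generalize rnk (op (ρ3 δ) (m.sumL LK)) = r at hK
  have : 248 + 3 * t.2.2 + 20 * t.2.1 - 40 * t'.1 + 16 * t.1 = 128 * r := by
    apply Int.cast_injective (α := ℂ)
    push_cast at hK ⊢
    linear_combination hK
  obtain ⟨rfl, a0⟩ := key t ht t4 t' ht' (by exact_mod_cast t2') (by exact_mod_cast t3')
    (by omega) ⟨r, this⟩
  rw [a0] at hE
  have r8 : rnk (op (ρ3 δ) (m.sumL LQ)) = 8 := by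
    apply Nat.cast_injective (R := ℂ)
    push_cast at hQ ⊢
    linear_combination -hQ / 16
  have sV : ∀ g : E83, single g (1 : ℂ) ∈ VG M E83 := fun g => single_mem_VG _ (one_mem _)
  have o1 : ∀ g : E83, op (ρ3 δ) (single g 1) = ρ3 δ g := fun g => by
    rw [op_single, red_one, one_smul]
  have cm : ∀ g : E83, Commute (single g (1 : ℂ)) (m.sumL LQ) →
      Commute (ρ3 δ g) (op (ρ3 δ) (m.sumL LQ)) := fun g e => by
    rw [← o1, Commute, SemiconjBy, ← op_mul _ (sV g) (m.sumL_mem M _), e.eq,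
      op_mul _ (m.sumL_mem M _) (sV g)]
  have oo : ∀ g : E83, op (ρ3 δ) (1 + (single g 1 + single g 1 * single g 1)) =
      1 + (ρ3 δ g + ρ3 δ g * ρ3 δ g) := fun g => by
    rw [op_add _ (one_mem _) (add_mem (sV g) (mul_mem (sV g) (sV g))), op_one,
      op_add _ (sV g) (mul_mem (sV g) (sV g)), op_mul _ (sV g) (sV g), o1]
  have := charP_kk hM
  refine absurd (nine_le (cm x xQ) (cm y yQ) ((show Commute x y from e11).map (ρ3 δ))
    (by rw [← map_mul, ← map_mul, ← e8, map_one]) (by rw [← map_mul, ← map_mul, ← e10, map_one])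
    fun e => ?_) (by omega)
  rw [← oo, ← oo, ← eX, ← eY, ← op_mul _ (m.sumL_mem M _) (m.sumL_mem M _),
    ← op_mul _ (mul_mem (m.sumL_mem M _) (m.sumL_mem M _)) (m.sumL_mem M _)] at e
  have mX := mul_mem (mul_mem (m.sumL_mem M LX) (m.sumL_mem M LY)) (m.sumL_mem M LQ)
  rw [s1, ← mul_assoc, ← (cT.mul_left cXY).eq, mul_assoc (m.sumL LT),
    op_mul _ (mul_mem (m.sumL_mem M _) mX) (m.sumL_mem M _), op_mul _ (m.sumL_mem M _) mX, e,
    mul_zero, zero_mul, rnk_zero] at hE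
  have : (128 - 256 * (248 - 5 * c) : ℤ) = 0 := by
    apply Int.cast_injective (α := ℂ)
    push_cast at hE ⊢
    linear_combination hE
  omega

end H0.BC
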